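import Cfsg.Agent.SL2.Basic

/-!
# Common steps for the small orthogonal isomorphisms
-/

set_option autoImplicit false

namespace CfsgLib.OrthSmall

open Matrix
open scoped commutatorElement

variable {F : Type*} [Field F]

/-- An element commuting with everything up to sign is central. -/
theorem mem_center_of_commute_up_to_sign {s : Matrix.SpecialLinearGroup (Fin 2) F}
    (h : ∀ t : Matrix.SpecialLinearGroup (Fin 2) F, s * t * s⁻¹ = t ∨ s * t * s⁻¹ = -t) :
    s ∈ Subgroup.center (Matrix.SpecialLinearGroup (Fin 2) F) := by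
  have key : ∀ t : Matrix.SpecialLinearGroup (Fin 2) F, t.1.trace = 2 → s * t = t * s := by
    intro t ht
    rcases h t with h' | h'
    · exact mul_inv_eq_iff_eq_mul.1 h'
    · have h2 : (2 : F) + 2 = 0 := by
        have := CfsgLib.SL2.trace_conj t s
        rw [h', Matrix.SpecialLinearGroup.coe_neg, Matrix.trace_neg, ht] at this
        linear_combination -this
      have h20 : (2 : F) = 0 := by
        have : (2 : F) * 2 = 0 := by linear_combination h2
        exact mul_self_eq_zero.1 this
      have hneg : -t = t := by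
        apply Subtype.ext
        ext i j
        show -t.1 i j = t.1 i j
        linear_combination (-t.1 i j) * h20
      rw [hneg] at h'
      exact mul_inv_eq_iff_eq_mul.1 h'
  rw [Subgroup.mem_center_iff]
  intro g
  have htop : Subgroup.centralizer ({s} : Set (Matrix.SpecialLinearGroup (Fin 2) F)) = ⊤ := by
    rw [eq_top_iff, ← CfsgLib.SL2.U_sup_L, sup_le_iff]
    constructor
    · intro x hx
      obtain ⟨t, rfl⟩ := CfsgLib.SL2.mem_U.1 hx
      rw [Subgroup.mem_centralizer_singleton_iff]
      exact (key _ (by simp [Matrix.trace_fin_two, one_add_one_eq_two])).symm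
    · intro x hx
      obtain ⟨t, rfl⟩ := CfsgLib.SL2.mem_L.1 hx
      rw [Subgroup.mem_centralizer_singleton_iff]
      exact (key _ (by simp [Matrix.trace_fin_two, one_add_one_eq_two])).symm
  exact Subgroup.mem_centralizer_singleton_iff.1 (htop ▸ Subgroup.mem_top g)

/-- If the derived group is the image of `S` and only central elements of `S` become central,
the derived group modulo its centre is `S` modulo its centre. -/
theorem quotient_center_equiv {S O : Type*} [Group S] [Group O] (f : S →* O)
    (hrange : f.range = commutator O)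
    (hker : f.ker ≤ Subgroup.center S)
    (hcen : ∀ s : S, (∀ t : S, s * t * s⁻¹ * t⁻¹ ∈ f.ker) → s ∈ Subgroup.center S) :
    Nonempty ((commutator O) ⧸ Subgroup.center (commutator O) ≃* S ⧸ Subgroup.center S) := by
  let g : S →* commutator O := f.codRestrict _ fun s => hrange ▸ ⟨s, rfl⟩
  have hg : Function.Surjective g := by
    rintro ⟨x, hx⟩
    rw [← hrange] at hx
    obtain ⟨s, rfl⟩ := hx
    exact ⟨s, rfl⟩
  let π : S →* (commutator O) ⧸ Subgroup.center (commutator O) := (QuotientGroup.mk' _).comp g
  have hπ : Function.Surjective π := (QuotientGroup.mk'_surjective _).comp hg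
  have hk : π.ker = Subgroup.center S := by
    ext s
    rw [MonoidHom.mem_ker]
    show (QuotientGroup.mk' _ (g s)) = 1 ↔ _
    rw [QuotientGroup.mk'_apply, QuotientGroup.eq_one_iff]
    constructor
    · intro h
      refine hcen s fun t => ?_
      have := Subgroup.mem_center_iff.1 h (g t)
      have h' : g (s * t * s⁻¹ * t⁻¹) = 1 := by
        rw [map_mul, map_mul, map_mul, map_inv, map_inv, ← this, mul_inv_cancel_right, mul_inv_cancel]
      exact congrArg Subtype.val h'
    · intro h
      rw [Subgroup.mem_center_iff]
      intro x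
      obtain ⟨t, rfl⟩ := hg x
      rw [← map_mul, ← map_mul, Subgroup.mem_center_iff.1 h t]
  exact ⟨((QuotientGroup.quotientMulEquivOfEq hk).symm.trans
    (QuotientGroup.quotientKerEquivOfSurjective π hπ)).symm⟩

/-- The derived group, when a subgroup of index two is an image of `D` and an outer element inverts
the invariant `δ`. -/
theorem commutator_le_of_flip {D O A : Type*} [Group D] [Group O] [CommGroup A] (f : D →* O)
    (δ : D →* A) (τ : O) (N : Subgroup O)
    (hsplit : ∀ x : O, ∃ p, x = f p ∨ x = τ * f p)
    (hsq : ∀ p c, δ p = c ^ 2 → f p ∈ N)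
    (hN : ∀ n ∈ N, ∃ p, δ p = 1 ∧ f p = n)
    (hflip : ∀ p, ∃ r, τ * f p = f r * τ ∧ δ r = (δ p)⁻¹) :
    commutator O ≤ N := by
  have hgen : ∀ p, δ p = 1 → f p ∈ N := fun p hp => hsq p 1 (by rw [hp, one_pow])
  have hnorm : N.Normal := ⟨fun n hn x => by
    obtain ⟨s, hs, rfl⟩ := hN n hn
    obtain ⟨p, rfl | rfl⟩ := hsplit x
    · rw [← map_inv, ← map_mul, ← map_mul]
      exact hgen _ (by rw [map_mul, map_mul, map_inv, hs, mul_one, mul_inv_cancel])
    · obtain ⟨r, hr, hrd⟩ := hflip (p * s * p⁻¹)
      have hr' : τ * f p * f s * (τ * f p)⁻¹ = f r := by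
        rw [eq_mul_inv_of_mul_eq hr.symm, map_mul, map_mul, map_inv]
        simp only [_root_.mul_inv_rev, mul_assoc]
      rw [hr']
      exact hgen r (by rw [hrd, map_mul, map_mul, map_inv, hs, mul_one, mul_inv_cancel, inv_one])⟩
  let π := QuotientGroup.mk' N
  have hpp : ∀ p r, π (f p) * π (f r) = π (f r) * π (f p) := by
    intro p r
    rw [← map_mul, ← map_mul, ← map_mul, ← map_mul, QuotientGroup.mk'_eq_mk']
    refine ⟨f ((p * r)⁻¹ * (r * p)), hgen _ ?_, ?_⟩
    · rw [map_mul, map_inv, map_mul, map_mul, mul_comm (δ r), inv_mul_cancel]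
    · rw [← map_mul, mul_inv_cancel_left]
  have hpt : ∀ p, π (f p) * π τ = π τ * π (f p) := by
    intro p
    obtain ⟨r, hr, hrd⟩ := hflip p
    rw [← map_mul, ← map_mul, hr, map_mul, map_mul, mul_left_inj, QuotientGroup.mk'_eq_mk']
    refine ⟨f (p⁻¹ * r), hsq _ (δ p)⁻¹ ?_, ?_⟩
    · rw [map_mul, map_inv, hrd, sq]
    · rw [← map_mul, mul_inv_cancel_left]
  have hab : ∀ x y, π (x * y) = π (y * x) := by
    intro x y
    obtain ⟨p, rfl | rfl⟩ := hsplit x <;> obtain ⟨r, rfl | rfl⟩ := hsplit y <;>
      simp only [map_mul]
    · exact hpp p r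
    · rw [← mul_assoc, hpt, mul_assoc, hpp, mul_assoc]
    · rw [mul_assoc, hpp, ← mul_assoc, ← hpt, mul_assoc]
    · rw [mul_assoc, mul_assoc, ← mul_assoc (π (f p)), hpt, mul_assoc, hpp,
        ← mul_assoc (π (f r)), hpt, mul_assoc]
  rw [← QuotientGroup.ker_mk' N, commutator_def, Subgroup.commutator_le]
  intro x _ y _
  show π (x * y * x⁻¹ * y⁻¹) = 1
  rw [mul_assoc (x * y), map_mul, hab x y, ← map_mul]
  group
  exact map_one π

/-- A perfect group, simple modulo its centre, mapping non-trivially to `O` is, modulo centres, the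
derived group of `O` when the orders agree. -/
theorem perfect_equiv_commutator_quotient {S O : Type*} [Group S] [Group O] [Finite S] [Finite O]
    (hperf : commutator S = ⊤) (hsimp : IsSimpleGroup (S ⧸ Subgroup.center S)) (f : S →* O)
    (hf : f ≠ 1)
    (hcard : Nat.card ((commutator O) ⧸ Subgroup.center (commutator O)) =
      Nat.card (S ⧸ Subgroup.center S)) :
    Nonempty ((commutator O) ⧸ Subgroup.center (commutator O) ≃* S ⧸ Subgroup.center S) := by
  have hmem : ∀ s, f s ∈ commutator O := by
    intro s
    have h : Subgroup.map f (commutator S) ≤ commutator O := by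
      simp only [commutator_def, Subgroup.map_commutator]
      exact Subgroup.commutator_mono le_top le_top
    exact h (Subgroup.mem_map_of_mem f (hperf ▸ Subgroup.mem_top s))
  let g : S →* commutator O := f.codRestrict _ hmem
  let π : S →* (commutator O) ⧸ Subgroup.center (commutator O) := (QuotientGroup.mk' _).comp g
  have hker : π.ker ≤ Subgroup.center S := by
    haveI := hsimp
    rcases (π.normal_ker.map (QuotientGroup.mk' (Subgroup.center S))
      (QuotientGroup.mk'_surjective _)).eq_bot_or_eq_top with h | h
    · rw [Subgroup.map_eq_bot_iff, QuotientGroup.ker_mk'] at h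
      exact h
    · exfalso
      apply hf
      have hab : commutator S ≤ π.ker := by
        rw [commutator_def, Subgroup.commutator_le]
        intro a _ b _
        obtain ⟨a', ha', ea⟩ : ∃ a' ∈ π.ker, QuotientGroup.mk' (Subgroup.center S) a' = a := by
          have : (a : S ⧸ Subgroup.center S) ∈ Subgroup.map (QuotientGroup.mk' _) π.ker :=
            h ▸ Subgroup.mem_top _
          exact this
        obtain ⟨z, hz, rfl⟩ := (QuotientGroup.mk'_eq_mk' _).1 ea
        rw [MonoidHom.mem_ker] at ha' ⊢
        have hzb : π z * π b = π b * π z := by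
          rw [← map_mul, ← map_mul, Subgroup.mem_center_iff.1 hz b]
        simp only [commutatorElement_def, map_mul, map_inv, ha', one_mul]
        rw [hzb, mul_inv_cancel_right, mul_inv_cancel]
      have hπ : ∀ s, g s ∈ Subgroup.center (commutator O) := fun s =>
        (QuotientGroup.eq_one_iff _).1 (MonoidHom.mem_ker.1 (hab (hperf ▸ Subgroup.mem_top s)))
      have h1 : commutator S ≤ f.ker := by
        rw [commutator_def, Subgroup.commutator_le]
        intro a _ b _
        have hc : f b * f a = f a * f b :=
          congrArg Subtype.val (Subgroup.mem_center_iff.1 (hπ a) (g b))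
        rw [MonoidHom.mem_ker]
        simp only [commutatorElement_def, map_mul, map_inv]
        rw [← hc, mul_inv_cancel_right, mul_inv_cancel]
      exact MonoidHom.ext fun s => MonoidHom.mem_ker.1 (h1 (hperf ▸ Subgroup.mem_top s))
  have hle : (Subgroup.center S).index ≤ π.ker.index := by
    refine Nat.le_of_dvd ?_ (Subgroup.index_dvd_of_le hker)
    exact Nat.pos_of_ne_zero Subgroup.index_ne_zero_of_finite
  have hrle : Nat.card π.range ≤ Nat.card ((commutator O) ⧸ Subgroup.center (commutator O)) :=
    Subgroup.card_le_card_group _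
  rw [hcard, ← Subgroup.index_eq_card] at hrle
  rw [Subgroup.index_ker] at hle
  have heq : Nat.card π.range = Nat.card ((commutator O) ⧸ Subgroup.center (commutator O)) := by
    rw [hcard, ← Subgroup.index_eq_card]
    omega
  have hsurj : Function.Surjective π := MonoidHom.range_eq_top.1 (Subgroup.eq_top_of_card_eq _ heq)
  have hk : π.ker = Subgroup.center S := by
    refine le_antisymm hker ?_
    have h1 := π.ker.card_mul_index
    have h2 := (Subgroup.center S).card_mul_index
    rw [Subgroup.index_ker, heq, hcard, ← Subgroup.index_eq_card, ← h2] at h1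
    have := Nat.eq_of_mul_eq_mul_right (Nat.pos_of_ne_zero Subgroup.index_ne_zero_of_finite) h1
    exact (Subgroup.eq_of_le_of_card_ge hker this.ge).ge
  exact ⟨((QuotientGroup.quotientMulEquivOfEq hk).symm.trans
    (QuotientGroup.quotientKerEquivOfSurjective π hsurj)).symm⟩

end CfsgLib.OrthSmall
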