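import Cfsg.Agent.OrthSmall.Common
import Cfsg.Agent.Eq.Def_Classical
import Cfsg.Agent.Classical.Orth.OrderStd
import Cfsg.Agent.S0288
import Cfsg.Agent.Classical.Linear.Generation
import Cfsg.Agent.Classical.Linear.Card
import Cfsg.Agent.Classical.Unitary.Field
import Cfsg.Agent.QuadExt.Embedding

/-!
# `PΩ₄⁻(q) ≅ PSL₂(q²)`: the action `H ↦ g H g*` on Hermitian `2 × 2` matrices
-/

set_option autoImplicit false

namespace CfsgLib.OrthSmall

open Matrix

variable {F K : Type*} [Field F] [Field K] [Algebra F K]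

/-- The index type of the four-dimensional minus form. -/
abbrev I4m : Type := (Fin 1 ⊕ Fin 1) ⊕ Fin 2

variable (σ : K →ₐ[F] K) (r : K)

/-- The twisted transpose. -/
def tstar (M : Matrix (Fin 2) (Fin 2) K) : Matrix (Fin 2) (Fin 2) K := (M.map σ)ᵀ

theorem tstar_mul (M N : Matrix (Fin 2) (Fin 2) K) : tstar σ (M * N) = tstar σ N * tstar σ M := by
  rw [tstar, tstar, tstar, Matrix.map_mul, Matrix.transpose_mul]

theorem tstar_one : tstar σ (1 : Matrix (Fin 2) (Fin 2) K) = 1 := by
  simp [tstar, Matrix.map_one]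

theorem det_tstar (M : Matrix (Fin 2) (Fin 2) K) : (tstar σ M).det = σ M.det := by
  rw [tstar, Matrix.det_transpose]
  exact (σ.toRingHom.map_det M).symm

/-- The coordinate in `K` of a pair from `F`. -/
def pairCoord : (Fin 2 → F) →ₗ[F] K where
  toFun z := algebraMap F K (z 0) - r * algebraMap F K (z 1)
  map_add' u v := by simp only [Pi.add_apply, map_add]; ring
  map_smul' c v := by simp only [Pi.smul_apply, smul_eq_mul, map_mul, Algebra.smul_def,
    RingHom.id_apply]; ring

/-- The Hermitian matrix of a vector. -/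
def hmat : (I4m → F) →ₗ[F] Matrix (Fin 2) (Fin 2) K where
  toFun v := !![algebraMap F K (v (.inl (.inl 0))), pairCoord r (v ∘ Sum.inr);
    σ (pairCoord r (v ∘ Sum.inr)), -algebraMap F K (v (.inl (.inr 0)))]
  map_add' u v := by
    rw [show (u + v) ∘ Sum.inr = u ∘ Sum.inr + v ∘ Sum.inr from rfl, map_add]
    ext i j; fin_cases i <;> fin_cases j <;> simp <;> ring
  map_smul' c v := by
    rw [show (c • v) ∘ Sum.inr = c • (v ∘ Sum.inr) from rfl, map_smul]
    ext i j; fin_cases i <;> fin_cases j <;> simp [Algebra.smul_def]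

variable {σ r}

/-- The standing hypotheses: `σ` is the involution fixing exactly `F`, and `r, σ r` are the roots of
`t² + at + b`, which has none in `F`. -/
structure Setting (σ : K →ₐ[F] K) (r : K) (a b : F) : Prop where
  invol : ∀ x, σ (σ x) = x
  fixed : ∀ x, σ x = x → x ∈ (algebraMap F K).range
  sum : r + σ r = -algebraMap F K a
  prod : r * σ r = algebraMap F K b
  ne : σ r ≠ r
  coord : Function.Bijective (pairCoord (F := F) r)

variable {a b : F}

theorem Setting.quadForm_eq (h : Setting σ r a b) (v : I4m → F) :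
    algebraMap F K (Cfsg.quadFormMinus 1 F a b v) = -(hmat σ r v).det := by
  rw [Matrix.det_fin_two]
  simp [hmat, pairCoord, Cfsg.quadFormMinus, Fin.sum_univ_one, AlgHom.commutes]
  linear_combination
    (algebraMap F K (v (.inr 0)) * algebraMap F K (v (.inr 1))) * h.sum -
      (algebraMap F K (v (.inr 1))) ^ 2 * h.prod

theorem Setting.tstar_hmat (h : Setting σ r a b) (v : I4m → F) :
    tstar σ (hmat σ r v) = hmat σ r v := by
  ext i j
  fin_cases i <;> fin_cases j <;> simp [tstar, hmat, h.invol, AlgHom.commutes]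

theorem Setting.exists_hmat (h : Setting σ r a b) {M : Matrix (Fin 2) (Fin 2) K}
    (hM : tstar σ M = M) : ∃ v, hmat σ r v = M := by
  obtain ⟨x, hx⟩ := h.fixed (M 0 0) (congrFun (congrFun hM 0) 0)
  obtain ⟨y, hy⟩ := h.fixed (M 1 1) (congrFun (congrFun hM 1) 1)
  obtain ⟨z, hz⟩ := h.coord.2 (M 0 1)
  refine ⟨Sum.elim (Sum.elim (fun _ => x) (fun _ => -y)) z, ?_⟩
  have h10 : σ (M 0 1) = M 1 0 := congrFun (congrFun hM 1) 0
  ext i j
  fin_cases i <;> fin_cases j <;> simp [hmat, Sum.elim_comp_inr, hx, hy, hz, h10]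

theorem Setting.hmat_injective (h : Setting σ r a b) : Function.Injective (hmat σ r) := by
  intro u v huv
  have h00 := congrFun (congrFun huv 0) 0
  have h01 := congrFun (congrFun huv 0) 1
  have h11 := congrFun (congrFun huv 1) 1
  simp [hmat] at h00 h01 h11
  have hz := h.coord.1 h01
  funext k
  rcases k with (k | k) | k
  · fin_cases k; exact h00
  · fin_cases k; exact h11
  · exact congrFun hz k

variable (σ r) in
/-- A left inverse of `hmat`. -/
noncomputable def hvec : Matrix (Fin 2) (Fin 2) K →ₗ[F] (I4m → F) :=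
  Function.invFun (fun L : Matrix (Fin 2) (Fin 2) K →ₗ[F] (I4m → F) => L ∘ₗ hmat σ r) LinearMap.id

theorem Setting.hvec_hmat (h : Setting σ r a b) (v : I4m → F) : hvec σ r (hmat σ r v) = v := by
  have := Function.invFun_eq (f := fun L : Matrix (Fin 2) (Fin 2) K →ₗ[F] (I4m → F) => L ∘ₗ hmat σ r)
    (b := LinearMap.id)
    ((hmat σ r).exists_leftInverse_of_injective (LinearMap.ker_eq_bot.2 h.hmat_injective))
  exact LinearMap.congr_fun this v

theorem Setting.hmat_hvec (h : Setting σ r a b) {M : Matrix (Fin 2) (Fin 2) K} (hM : tstar σ M = M) :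
    hmat σ r (hvec σ r M) = M := by
  obtain ⟨v, rfl⟩ := h.exists_hmat hM
  rw [h.hvec_hmat]

theorem Setting.tstar_tstar (h : Setting σ r a b) (M : Matrix (Fin 2) (Fin 2) K) :
    tstar σ (tstar σ M) = M := by
  ext i j; simp [tstar, h.invol]

theorem Setting.tstar_conj (h : Setting σ r a b) (g : Matrix (Fin 2) (Fin 2) K) (v : I4m → F) :
    tstar σ (g * hmat σ r v * tstar σ g) = g * hmat σ r v * tstar σ g := by
  rw [tstar_mul, tstar_mul, h.tstar_hmat, h.tstar_tstar, mul_assoc]

variable (σ r) in
/-- `H ↦ g H g*` as a linear map on vectors. -/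
noncomputable def hermLin (g : Matrix (Fin 2) (Fin 2) K) : (I4m → F) →ₗ[F] (I4m → F) :=
  hvec σ r ∘ₗ LinearMap.mulLeft F g ∘ₗ LinearMap.mulRight F (tstar σ g) ∘ₗ hmat σ r

theorem Setting.hmat_hermLin (h : Setting σ r a b) (g : Matrix (Fin 2) (Fin 2) K) (v : I4m → F) :
    hmat σ r (hermLin σ r g v) = g * hmat σ r v * tstar σ g := by
  have e : hermLin σ r g v = hvec σ r (g * hmat σ r v * tstar σ g) := by
    simp [hermLin, mul_assoc]
  rw [e, h.hmat_hvec (h.tstar_conj g v)]

/-- `H ↦ g H g*` as a matrix. -/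
noncomputable def Setting.hermMat (h : Setting σ r a b) :
    Matrix (Fin 2) (Fin 2) K →* Matrix I4m I4m F where
  toFun g := LinearMap.toMatrix' (hermLin σ r g)
  map_one' := by
    rw [show hermLin σ r (1 : Matrix (Fin 2) (Fin 2) K) = LinearMap.id from
      LinearMap.ext fun v => h.hmat_injective (by
        rw [h.hmat_hermLin, tstar_one, one_mul, mul_one, LinearMap.id_apply])]
    exact LinearMap.toMatrix'_id
  map_mul' g k := by
    rw [← LinearMap.toMatrix'_comp]
    congr 1
    refine LinearMap.ext fun v => h.hmat_injective ?_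
    rw [LinearMap.comp_apply, h.hmat_hermLin, h.hmat_hermLin, h.hmat_hermLin, tstar_mul]
    simp only [mul_assoc]

theorem Setting.hmat_hermMat (h : Setting σ r a b) (g : Matrix (Fin 2) (Fin 2) K) (v : I4m → F) :
    hmat σ r (h.hermMat g *ᵥ v) = g * hmat σ r v * tstar σ g := by
  rw [show h.hermMat g = LinearMap.toMatrix' (hermLin σ r g) from rfl,
    LinearMap.toMatrix'_mulVec, h.hmat_hermLin]

variable (σ) in
/-- Units of norm one. -/
def normOne : Subgroup Kˣ :=
  MonoidHom.ker ((MonoidHom.id Kˣ) * Units.map σ.toRingHom.toMonoidHom)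

theorem mem_normOne {u : Kˣ} : u ∈ normOne σ ↔ (u : K) * σ u = 1 := by
  rw [normOne, MonoidHom.mem_ker, Units.ext_iff]
  rfl

variable (σ) in
/-- Matrices whose determinant has norm one. -/
def detNormOne : Subgroup (GL (Fin 2) K) := (normOne σ).comap Matrix.GeneralLinearGroup.det

/-- The determinant on `detNormOne`. -/
def detHom : detNormOne σ →* normOne σ :=
  (Matrix.GeneralLinearGroup.det.comp (detNormOne σ).subtype).codRestrict _ fun g => g.2

theorem det_mul_conj (g : detNormOne σ) : g.1.val.det * σ g.1.val.det = 1 := by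
  simpa using mem_normOne.1 g.2

/-- The isometry of a matrix. -/
noncomputable def Setting.herm (h : Setting σ r a b) :
    detNormOne σ →* Cfsg.isometryGroup F (Cfsg.quadFormMinus 1 F a b) :=
  (((Units.map h.hermMat).comp (detNormOne σ).subtype)).codRestrict _ fun g => fun u _ => by
    show Cfsg.quadFormMinus 1 F a b (h.hermMat g.1.val *ᵥ u) = Cfsg.quadFormMinus 1 F a b u
    apply (algebraMap F K).injective
    rw [h.quadForm_eq, h.quadForm_eq, h.hmat_hermMat, Matrix.det_mul, Matrix.det_mul, det_tstar]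
    linear_combination (-(hmat σ r u).det) * det_mul_conj g

theorem Setting.herm_apply (h : Setting σ r a b) (g : detNormOne σ) (v : I4m → F) :
    hmat σ r ((h.herm g).1.val *ᵥ v) = g.1.val * hmat σ r v * tstar σ g.1.val :=
  h.hmat_hermMat g.1.val v

theorem Setting.iso_ext (h : Setting σ r a b) {x y : Cfsg.isometryGroup F (Cfsg.quadFormMinus 1 F a b)}
    (hxy : ∀ v : I4m → F, hmat σ r (x.1.val *ᵥ v) = hmat σ r (y.1.val *ᵥ v)) : x = y :=
  Subtype.ext (Units.ext (Matrix.ext_iff_mulVec.2 fun v => h.hmat_injective (hxy v)))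

/-- A matrix acting on Hermitian matrices as `f` commutes suitably with three test matrices. -/
theorem Setting.scalar_of_fix_two (h : Setting σ r a b) (g : GL (Fin 2) K)
    (h1 : g.val * tstar σ g.val = 1)
    (hE : g.val * !![1, 0; 0, 0] * tstar σ g.val = !![1, 0; 0, 0])
    (hX : g.val * !![0, 1; 1, 0] * tstar σ g.val = !![0, 1; 1, 0]) :
    g.val 1 0 = 0 ∧ g.val 0 1 = 0 ∧ g.val 0 0 = g.val 1 1 := by
  have h2 : tstar σ g.val * g.val = 1 := mul_eq_one_comm.1 h1
  have key : ∀ M, g.val * M * tstar σ g.val = M → g.val * M = M * g.val := fun M hM => by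
    conv_rhs => rw [← hM, mul_assoc, h2, mul_one]
  have eE := key _ hE
  have eX := key _ hX
  have a10 := congrFun (congrFun eE 1) 0
  have a01 := congrFun (congrFun eE 0) 1
  have a00 := congrFun (congrFun eX 0) 1
  simp [Matrix.mul_apply, Matrix.vecMul, dotProduct, Fin.sum_univ_two] at a10 a01 a00
  exact ⟨a10, a01.symm, a00⟩

theorem Setting.herm_eq_one_iff (h : Setting σ r a b) (g : detNormOne σ) :
    h.herm g = 1 ↔ ∃ u ∈ normOne σ, g.1 = Matrix.GeneralLinearGroup.scalar (Fin 2) u := by
  constructor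
  · intro hg
    have key : ∀ M, tstar σ M = M → g.1.val * M * tstar σ g.1.val = M := fun M hM => by
      obtain ⟨v, rfl⟩ := h.exists_hmat hM
      rw [← h.herm_apply, hg, OneMemClass.coe_one, Units.val_one, Matrix.one_mulVec]
    have h1 : g.1.val * tstar σ g.1.val = 1 := by simpa using key 1 (tstar_one σ)
    obtain ⟨h10, h01, h00⟩ := h.scalar_of_fix_two g.1 h1
      (key _ (by ext i j; fin_cases i <;> fin_cases j <;> simp [tstar]))
      (key _ (by ext i j; fin_cases i <;> fin_cases j <;> simp [tstar]))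
    have hN : g.1.val 0 0 * σ (g.1.val 0 0) = 1 := by
      have := congrFun (congrFun h1 0) 0
      simpa [tstar, Matrix.mul_apply, Fin.sum_univ_two, h01] using this
    refine ⟨Units.mk0 _ (left_ne_zero_of_mul_eq_one hN), mem_normOne.2 hN, Units.ext ?_⟩
    ext i j
    fin_cases i <;> fin_cases j <;> simp [h10, h01, h00]
  · rintro ⟨u, hu, hg⟩
    refine h.iso_ext fun v => ?_
    rw [h.herm_apply, hg, OneMemClass.coe_one, Units.val_one, Matrix.one_mulVec]
    have h2 := mem_normOne.1 hu
    ext i j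
    fin_cases i <;> fin_cases j <;>
      simp [tstar, Matrix.mul_apply, Fin.sum_univ_two] <;> linear_combination (hmat σ r v _ _) * h2

variable (σ r) in
/-- Transposition on vectors. -/
noncomputable def hTransLin : (I4m → F) →ₗ[F] (I4m → F) :=
  hvec σ r ∘ₗ (Matrix.transposeLinearEquiv (Fin 2) (Fin 2) F K).toLinearMap ∘ₗ hmat σ r

theorem Setting.hmat_hTransLin (h : Setting σ r a b) (v : I4m → F) :
    hmat σ r (hTransLin σ r v) = (hmat σ r v)ᵀ := by
  have e : hTransLin σ r v = hvec σ r (hmat σ r v)ᵀ := rfl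
  rw [e, h.hmat_hvec]
  conv_rhs => rw [← h.tstar_hmat v]
  rfl

theorem Setting.hmat_hTrans (h : Setting σ r a b) (v : I4m → F) :
    hmat σ r (LinearMap.toMatrix' (hTransLin σ r) *ᵥ v) = (hmat σ r v)ᵀ := by
  rw [LinearMap.toMatrix'_mulVec, h.hmat_hTransLin]

theorem Setting.hTrans_mul_self (h : Setting σ r a b) :
    LinearMap.toMatrix' (hTransLin σ r) * LinearMap.toMatrix' (hTransLin σ r) = 1 :=
  Matrix.ext_iff_mulVec.2 fun v => h.hmat_injective (by
    rw [← Matrix.mulVec_mulVec, h.hmat_hTrans, h.hmat_hTrans, Matrix.transpose_transpose,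
      Matrix.one_mulVec])

/-- Transposition as an isometry. -/
noncomputable def Setting.flipIso (h : Setting σ r a b) :
    Cfsg.isometryGroup F (Cfsg.quadFormMinus 1 F a b) :=
  ⟨⟨_, _, h.hTrans_mul_self, h.hTrans_mul_self⟩, fun u _ => by
    show Cfsg.quadFormMinus 1 F a b (LinearMap.toMatrix' (hTransLin σ r) *ᵥ u) =
      Cfsg.quadFormMinus 1 F a b u
    apply (algebraMap F K).injective
    rw [h.quadForm_eq, h.quadForm_eq, h.hmat_hTrans, Matrix.det_transpose]⟩

theorem Setting.flipIso_apply (h : Setting σ r a b) (v : I4m → F) :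
    hmat σ r (h.flipIso.1.val *ᵥ v) = (hmat σ r v)ᵀ := h.hmat_hTrans v

theorem Setting.flipIso_not_mem (h : Setting σ r a b) : h.flipIso ∉ h.herm.range := by
  rintro ⟨g, hg⟩
  have key : ∀ M, tstar σ M = M → g.1.val * M * tstar σ g.1.val = Mᵀ := fun M hM => by
    obtain ⟨v, rfl⟩ := h.exists_hmat hM
    rw [← h.herm_apply, hg, h.flipIso_apply]
  have h1 : g.1.val * tstar σ g.1.val = 1 := by simpa using key 1 (tstar_one σ)
  have hE : tstar σ !![(1 : K), 0; 0, 0] = !![1, 0; 0, 0] := by
    ext i j; fin_cases i <;> fin_cases j <;> simp [tstar]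
  have hX : tstar σ !![(0 : K), 1; 1, 0] = !![0, 1; 1, 0] := by
    ext i j; fin_cases i <;> fin_cases j <;> simp [tstar]
  obtain ⟨h10, h01, h00⟩ := h.scalar_of_fix_two g.1 h1
    ((key _ hE).trans (by ext i j; fin_cases i <;> fin_cases j <;> simp))
    ((key _ hX).trans (by ext i j; fin_cases i <;> fin_cases j <;> simp))
  have hN : g.1.val 1 1 * σ (g.1.val 1 1) = 1 := by
    have := congrFun (congrFun h1 1) 1
    simpa [tstar, Matrix.mul_apply, Fin.sum_univ_two, h10] using this
  have h3 := congrFun (congrFun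
    (key !![0, r; σ r, 0] (by ext i j; fin_cases i <;> fin_cases j <;> simp [tstar, h.invol])) 0) 1
  simp [tstar, Matrix.mul_apply, Fin.sum_univ_two, h10, h01, h00] at h3
  apply h.ne
  linear_combination r * hN - h3

/-- `g ↦ σ(g)` on `detNormOne`. -/
noncomputable def Setting.conjPt (h : Setting σ r a b) (g : detNormOne σ) : detNormOne σ :=
  ⟨Matrix.GeneralLinearGroup.map σ.toRingHom g.1, by
    show Matrix.GeneralLinearGroup.det _ ∈ normOne σ
    rw [mem_normOne, Matrix.GeneralLinearGroup.val_det_apply]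
    show (g.1.val.map σ).det * σ (g.1.val.map σ).det = 1
    rw [show (g.1.val.map σ).det = σ g.1.val.det from (σ.toRingHom.map_det _).symm, ← map_mul,
      det_mul_conj, map_one]⟩

theorem Setting.flip_conj (h : Setting σ r a b) (g : detNormOne σ) :
    h.flipIso * h.herm g = h.herm (h.conjPt g) * h.flipIso ∧
      detHom (h.conjPt g) = (detHom g)⁻¹ := by
  constructor
  · refine h.iso_ext fun v => ?_
    rw [Subgroup.coe_mul, Subgroup.coe_mul, Units.val_mul, Units.val_mul, ← mulVec_mulVec,
      ← mulVec_mulVec, h.flipIso_apply, h.herm_apply, h.herm_apply, h.flipIso_apply,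
      Matrix.transpose_mul, Matrix.transpose_mul, ← mul_assoc]
    have e1 : (tstar σ g.1.val)ᵀ = g.1.val.map σ := Matrix.transpose_transpose _
    have e2 : tstar σ (g.1.val.map σ) = g.1.valᵀ := by ext i j; simp [tstar, h.invol]
    show (tstar σ g.1.val)ᵀ * (hmat σ r v)ᵀ * g.1.valᵀ =
      g.1.val.map σ * (hmat σ r v)ᵀ * tstar σ (g.1.val.map σ)
    rw [e1, e2]
  · refine eq_inv_of_mul_eq_one_left (Subtype.ext (Units.ext ?_))
    show (g.1.val.map σ).det * g.1.val.det = 1
    rw [show (g.1.val.map σ).det = σ g.1.val.det from (σ.toRingHom.map_det _).symm, mul_comm,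
      det_mul_conj]

/-- The special linear group inside `detNormOne`. -/
noncomputable def slIn : Matrix.SpecialLinearGroup (Fin 2) K →* detNormOne σ :=
  Matrix.SpecialLinearGroup.toGL.codRestrict _ fun g => by
    show Matrix.GeneralLinearGroup.det _ ∈ normOne σ
    rw [Matrix.SpecialLinearGroup.coeToGL_det]
    exact one_mem _

theorem Setting.range_eq_commutator [Fintype F] [Fintype K] (h : Setting σ r a b)
    (hidx : h.herm.range.index = 2) (hK : 4 ≤ Fintype.card K) :
    (h.herm.comp slIn).range = commutator (Cfsg.isometryGroup F (Cfsg.quadFormMinus 1 F a b)) := by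
  apply le_antisymm
  · rw [MonoidHom.range_eq_map, ← CfsgLib.Classical.Linear.commutator_sl_fin_eq_top (F := K) 2
      fun _ => CfsgLib.Classical.Linear.exists_sq_ne_one_of_four_le (by rwa [Nat.card_eq_fintype_card])]
    simp only [commutator_def, Subgroup.map_commutator]
    exact Subgroup.commutator_mono le_top le_top
  · refine commutator_le_of_flip h.herm detHom h.flipIso _ (fun x => ?_) (fun p c hc => ?_)
      (fun n hn => ?_) (fun p => ⟨h.conjPt p, h.flip_conj p⟩)
    · by_cases hx : x ∈ h.herm.range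
      · obtain ⟨p, rfl⟩ := hx
        exact ⟨p, Or.inl rfl⟩
      · obtain ⟨p, hp⟩ := (Subgroup.mul_mem_iff_of_index_two hidx (a := h.flipIso⁻¹) (b := x)).2
          (iff_of_false (fun hh => h.flipIso_not_mem (inv_mem_iff.1 hh)) hx)
        exact ⟨p, Or.inr (by rw [hp, mul_inv_cancel_left])⟩
    · have hzmem : (Matrix.GeneralLinearGroup.scalar (Fin 2) (c.1)⁻¹ : GL (Fin 2) K) ∈
          detNormOne σ := by
        show Matrix.GeneralLinearGroup.det _ ∈ normOne σ
        have : Matrix.GeneralLinearGroup.det (Matrix.GeneralLinearGroup.scalar (Fin 2) (c.1)⁻¹ :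
            GL (Fin 2) K) = (c.1)⁻¹ ^ 2 := Units.ext (by simp [sq])
        rw [this]
        exact pow_mem (inv_mem c.2) 2
      have hz : h.herm ⟨_, hzmem⟩ = 1 := (h.herm_eq_one_iff _).2 ⟨_, inv_mem c.2, rfl⟩
      have hd : Matrix.GeneralLinearGroup.det
          (Matrix.GeneralLinearGroup.scalar (Fin 2) (c.1)⁻¹ * p.1 : GL (Fin 2) K) = 1 := by
        have hc' : Matrix.GeneralLinearGroup.det p.1 = c.1 ^ 2 := congrArg Subtype.val hc
        rw [map_mul, hc', Units.ext_iff, Units.val_mul, Matrix.GeneralLinearGroup.val_det_apply]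
        simp [sq]
        field_simp
      obtain ⟨s, hs⟩ := CfsgLib.Classical.Linear.mem_range_toGL.2 hd
      refine ⟨s, ?_⟩
      rw [← one_mul (h.herm p), ← hz, ← map_mul]
      exact congrArg h.herm (Subtype.ext hs)
    · obtain ⟨s, rfl⟩ := hn
      exact ⟨slIn s, Subtype.ext (Matrix.SpecialLinearGroup.coeToGL_det s), rfl⟩

theorem exists_setting {F K : Type*} [Field F] [Fintype F] [Field K] [Fintype K] {q : ℕ}
    (hF : Fintype.card F = q) (hK : Fintype.card K = q ^ 2) (a b : F)
    (hab : ∀ z₁ z₂ : F, z₁ ^ 2 + a * z₁ * z₂ + b * z₂ ^ 2 = 0 → z₁ = 0 ∧ z₂ = 0) :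
    ∃ alg : Algebra F K, letI := alg
      ∃ (σ : K →ₐ[F] K) (r : K), Setting σ r a b ∧ ∀ x, σ x = x ^ q := by
  classical
  obtain ⟨ι⟩ := CfsgLib.QuadExt.exists_ringHom (F := F) (K := K) (by rw [hF, hK])
  obtain ⟨r, s, hrs, hsum, hprod⟩ := CfsgLib.QuadExt.exists_split (by rw [hF, hK]) ι (-a) b
    (fun t ht => one_ne_zero (hab t 1 (by linear_combination ht)).2)
  letI := ι.toAlgebra
  let σ₀ : K →+* K := CfsgLib.Unitary.conjHom hK
  have hσ : ∀ x, σ₀ x = x ^ q := fun _ => rfl
  have hιfix : ∀ c : F, σ₀ (ι c) = ι c := fun c => by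
    rw [hσ, ← map_pow, ← hF, FiniteField.pow_card]
  let σ : K →ₐ[F] K := { σ₀ with commutes' := hιfix }
  have hfixed : ∀ x : K, σ x = x → x ∈ (algebraMap F K).range := by
    intro x hx
    have hb : Function.Bijective
        (fun c : F => (⟨ι c, by rw [← hσ]; exact hιfix c⟩ : {x : K // x ^ q = x})) := by
      refine (Nat.bijective_iff_injective_and_card _).2
        ⟨fun c d h => ι.injective (congrArg Subtype.val h), ?_⟩
      rw [CfsgLib.Unitary.card_fixed hK, Nat.card_eq_fintype_card, hF]
    obtain ⟨c, hc⟩ := hb.2 ⟨x, hx⟩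
    exact ⟨c, congrArg Subtype.val hc⟩
  have hroot : r ^ 2 + ι a * r + ι b = 0 := by
    have hsum' : r + s = -ι a := by rw [hsum, map_neg]
    linear_combination r * hsum' - hprod
  have hne : σ r ≠ r := fun hr => by
    obtain ⟨c, hc⟩ := hfixed r hr
    have : c ^ 2 + a * c * 1 + b * 1 ^ 2 = 0 := by
      apply ι.injective
      rw [← hc] at hroot
      simp only [map_add, map_mul, map_pow, map_one, map_zero]
      linear_combination hroot
    exact one_ne_zero (hab c 1 this).2
  have hσr : σ r = s := by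
    have hsum' : r + s = -ι a := by rw [hsum, map_neg]
    have h2 : σ r ^ 2 + ι a * σ r + ι b = 0 := by
      have := congrArg σ₀ hroot
      simp only [map_add, map_mul, map_pow, map_zero, hιfix] at this
      exact this
    have h3 : (σ r - r) * (σ r - s) = 0 := by linear_combination h2 - σ r * hsum' + hprod
    exact sub_eq_zero.1 ((mul_eq_zero.1 h3).resolve_left (sub_ne_zero.2 hne))
  have hset : Setting σ r a b :=
    { invol := CfsgLib.Unitary.pow_q_q hK
      fixed := hfixed
      sum := by rw [hσr, hsum]; exact map_neg ι a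
      prod := by rw [hσr]; exact hprod
      ne := hne
      coord := by
        refine (Nat.bijective_iff_injective_and_card _).2 ⟨?_, ?_⟩
        · rw [injective_iff_map_eq_zero]
          intro z hz
          have hz' : ι (z 0) = r * ι (z 1) := sub_eq_zero.1 hz
          have h1 : z 1 = 0 := by
            by_contra h1
            apply hne
            have hr : r = ι (z 0 / z 1) := by
              rw [map_div₀, eq_div_iff ((map_ne_zero ι).2 h1), hz']
            rw [hr]
            exact hιfix _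
          have h0 : z 0 = 0 := by
            rw [h1, map_zero, mul_zero] at hz'
            exact (map_eq_zero ι).1 hz'
          funext i
          fin_cases i <;> assumption
        · rw [Nat.card_eq_fintype_card, Nat.card_eq_fintype_card, Fintype.card_fun, Fintype.card_fin,
            hF, hK] }
  exact ⟨_, σ, r, hset, fun _ => rfl⟩

theorem pomega_four_minus_equiv {F K : Type*} [Field F] [Fintype F] [Field K] [Fintype K] {q : ℕ}
    (hF : Fintype.card F = q) (hK : Fintype.card K = q ^ 2) (a b : F)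
    (hab : ∀ z₁ z₂ : F, z₁ ^ 2 + a * z₁ * z₂ + b * z₂ ^ 2 = 0 → z₁ = 0 ∧ z₂ = 0) :
    Nonempty (Cfsg.POmega F (Cfsg.quadFormMinus 1 F a b) ≃*
      Matrix.ProjectiveSpecialLinearGroup (Fin 2) K) := by
  classical
  obtain ⟨alg, σ, r, hset, hσq⟩ := exists_setting hF hK a b hab
  letI := alg
  have hq : 2 ≤ q := hF ▸ Fintype.one_lt_card
  have hidx : hset.herm.range.index = 2 := by
    have hn1 : Nat.card (normOne σ) = q + 1 := by
      have hN : normOne σ = (powMonoidHom (q + 1) : Kˣ →* Kˣ).ker := by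
        ext u
        rw [mem_normOne, MonoidHom.mem_ker, powMonoidHom_apply, Units.ext_iff,
          Units.val_pow_eq_pow_val, pow_succ', Units.val_one, hσq]
      rw [hN, IsCyclic.card_powMonoidHom_ker, CfsgLib.Unitary.card_units_eq hK,
        Nat.gcd_eq_right (dvd_mul_left _ _)]
    have hdk : Nat.card (detHom (σ := σ)).ker = Nat.card (Matrix.SpecialLinearGroup (Fin 2) K) := by
      have he : (detHom (σ := σ)).ker = (slIn (σ := σ)).range := by
        ext p
        constructor
        · intro hp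
          obtain ⟨x, hx⟩ := CfsgLib.Classical.Linear.mem_range_toGL.2
            (congrArg Subtype.val (MonoidHom.mem_ker.1 hp))
          exact ⟨x, Subtype.ext hx⟩
        · rintro ⟨x, rfl⟩
          exact Subtype.ext (Matrix.SpecialLinearGroup.coeToGL_det x)
      rw [he]
      exact (Nat.card_congr (MonoidHom.ofInjective fun x y hxy =>
        Matrix.SpecialLinearGroup.toGL_injective (congrArg Subtype.val hxy)).toEquiv).symm
    have hsurj : Function.Surjective (detHom (σ := σ)) := fun u => by
      obtain ⟨g, hg⟩ := Matrix.GeneralLinearGroup.det_surjective (n := Fin 2) u.1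
      exact ⟨⟨g, by rw [detNormOne, Subgroup.mem_comap, hg]; exact u.2⟩, Subtype.ext hg⟩
    have hD := (detHom (σ := σ)).ker.card_mul_index
    rw [Subgroup.index_ker, MonoidHom.range_eq_top_of_surjective _ hsurj, Subgroup.card_top, hdk]
      at hD
    have hscal : ∀ u ∈ normOne σ,
        (Matrix.GeneralLinearGroup.scalar (Fin 2) u : GL (Fin 2) K) ∈ detNormOne σ := fun u hu => by
      show Matrix.GeneralLinearGroup.det _ ∈ normOne σ
      have : Matrix.GeneralLinearGroup.det (Matrix.GeneralLinearGroup.scalar (Fin 2) u :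
          GL (Fin 2) K) = u ^ 2 := Units.ext (by simp [sq])
      rw [this]
      exact pow_mem hu 2
    have hk : Nat.card hset.herm.ker = Nat.card (normOne σ) := by
      refine (Nat.card_congr (Equiv.ofBijective
        (fun u : normOne σ => (⟨⟨_, hscal u.1 u.2⟩, (hset.herm_eq_one_iff _).2 ⟨u.1, u.2, rfl⟩⟩ :
          hset.herm.ker)) ⟨fun u v huv => ?_, fun p => ?_⟩)).symm
      · have h' : (Matrix.GeneralLinearGroup.scalar (Fin 2) u.1 : GL (Fin 2) K).val 0 0 =
            (Matrix.GeneralLinearGroup.scalar (Fin 2) v.1 : GL (Fin 2) K).val 0 0 :=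
          congrArg (fun x : hset.herm.ker => x.1.1.val 0 0) huv
        exact Subtype.ext (Units.ext (by simpa using h'))
      · obtain ⟨u, hu, hp⟩ := (hset.herm_eq_one_iff p.1).1 p.2
        exact ⟨⟨u, hu⟩, Subtype.ext (Subtype.ext hp.symm)⟩
    have h3 := hset.herm.ker.card_mul_index
    rw [Subgroup.index_ker, hk, ← hD, mul_comm (Nat.card (Matrix.SpecialLinearGroup (Fin 2) K))]
      at h3
    have h4 := hset.herm.range.card_mul_index
    rw [Nat.eq_of_mul_eq_mul_left Nat.card_pos h3, CfsgLib.Classical.Linear.card_sl_two, hK,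
      Cfsg.Agent.S0288.result hF 2 (by norm_num) a b hab] at h4
    simp only [Nat.reduceSub, Finset.prod_range_one, zero_add, mul_one] at h4
    have hpos : 0 < q ^ 2 * ((q ^ 2) ^ 2 - 1) :=
      Nat.mul_pos (by positivity) (Nat.sub_pos_of_lt (Nat.one_lt_pow two_ne_zero
        (Nat.one_lt_pow two_ne_zero hq)))
    apply Nat.eq_of_mul_eq_mul_left hpos
    rw [h4, ← one_pow 2, Nat.sq_sub_sq (q ^ 2) 1, one_pow]
    ring
  have hK4 : 4 ≤ Fintype.card K := by
    rw [hK, sq]
    exact Nat.mul_le_mul hq hq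
  have hker : (hset.herm.comp slIn).ker ≤ Subgroup.center (Matrix.SpecialLinearGroup (Fin 2) K) := by
    intro x hx
    obtain ⟨u, -, hu⟩ := (hset.herm_eq_one_iff _).1 hx
    refine (Matrix.SpecialLinearGroup.toGL_mem_center_iff x).1 ?_
    rw [Matrix.GeneralLinearGroup.center_eq_range_scalar]
    exact ⟨u, hu.symm⟩
  refine quotient_center_equiv _ (hset.range_eq_commutator hidx hK4) hker fun x hx => ?_
  refine mem_center_of_commute_up_to_sign fun t => ?_
  rcases CfsgLib.SL2.mem_center_iff'.1 (hker (hx t)) with h | h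
  · exact Or.inl (mul_inv_eq_one.1 h)
  · exact Or.inr (by rw [mul_inv_eq_iff_eq_mul.1 h, neg_one_mul])

end CfsgLib.OrthSmall
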