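import Cfsg.Agent.OrthSmall.Common
import Cfsg.Agent.Eq.Def_Classical
import Cfsg.Agent.Classical.Linear.Generation
import Cfsg.Agent.Classical.Linear.Basic

/-!
# The Klein correspondence: `SL₄` on alternating `4 × 4` matrices
-/

set_option autoImplicit false
set_option maxHeartbeats 1000000

namespace CfsgLib.OrthSmall

open Matrix

variable {F : Type*} [Field F]

/-- The index type of the six-dimensional form. -/
abbrev I6 : Type := Fin 3 ⊕ Fin 3

/-- The alternating matrix of a vector. -/
def mat6 : (I6 → F) →ₗ[F] Matrix (Fin 4) (Fin 4) F where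
  toFun v := !![0, v (.inl 0), v (.inl 1), v (.inl 2);
    -v (.inl 0), 0, v (.inr 2), -v (.inr 1);
    -v (.inl 1), -v (.inr 2), 0, v (.inr 0);
    -v (.inl 2), v (.inr 1), -v (.inr 0), 0]
  map_add' u v := by ext i j; fin_cases i <;> fin_cases j <;> simp <;> ring
  map_smul' c v := by ext i j; fin_cases i <;> fin_cases j <;> simp

/-- The vector of a matrix. -/
def vec6 : Matrix (Fin 4) (Fin 4) F →ₗ[F] (I6 → F) where
  toFun M := Sum.elim ![M 0 1, M 0 2, M 0 3] ![M 2 3, -M 1 3, M 1 2]
  map_add' M N := by funext i; rcases i with i | i <;> fin_cases i <;> simp <;> ring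
  map_smul' c M := by funext i; rcases i with i | i <;> fin_cases i <;> simp

theorem vec6_mat6 (v : I6 → F) : vec6 (mat6 v) = v := by
  funext i
  rcases i with i | i <;> fin_cases i <;> simp [vec6, mat6]

theorem mat6_vec6_congr (A : Matrix (Fin 4) (Fin 4) F) (v : I6 → F) :
    mat6 (vec6 (A * mat6 v * Aᵀ)) = A * mat6 v * Aᵀ := by
  ext i j
  fin_cases i <;> fin_cases j <;>
    simp [vec6, mat6, Matrix.mul_apply, Fin.sum_univ_four] <;> ring

/-- `M ↦ A M Aᵀ` on vectors. -/
def kleinLin (A : Matrix (Fin 4) (Fin 4) F) : (I6 → F) →ₗ[F] (I6 → F) :=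
  vec6 ∘ₗ LinearMap.mulLeft F A ∘ₗ LinearMap.mulRight F Aᵀ ∘ₗ mat6

theorem mat6_kleinLin (A : Matrix (Fin 4) (Fin 4) F) (v : I6 → F) :
    mat6 (kleinLin A v) = A * mat6 v * Aᵀ := by
  rw [← mat6_vec6_congr A v]
  simp [kleinLin, mul_assoc]

theorem mat6_injective : Function.Injective (mat6 (F := F)) :=
  Function.LeftInverse.injective vec6_mat6

/-- `A` on the exterior square, as a matrix. -/
noncomputable def klein : Matrix (Fin 4) (Fin 4) F →* Matrix I6 I6 F where
  toFun A := LinearMap.toMatrix' (kleinLin A)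
  map_one' := by
    rw [show kleinLin (1 : Matrix (Fin 4) (Fin 4) F) = LinearMap.id from
      LinearMap.ext fun v => mat6_injective (by rw [mat6_kleinLin]; simp)]
    exact LinearMap.toMatrix'_id
  map_mul' A B := by
    rw [← LinearMap.toMatrix'_comp]
    congr 1
    refine LinearMap.ext fun v => mat6_injective ?_
    rw [LinearMap.comp_apply, mat6_kleinLin, mat6_kleinLin, mat6_kleinLin, Matrix.transpose_mul]
    simp only [mul_assoc]

theorem mat6_klein (A : Matrix (Fin 4) (Fin 4) F) (v : I6 → F) :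
    mat6 (klein A *ᵥ v) = A * mat6 v * Aᵀ := by
  rw [show klein A = LinearMap.toMatrix' (kleinLin A) from rfl, LinearMap.toMatrix'_mulVec,
    mat6_kleinLin]

theorem klein_transvection (i j : Fin 4) (hij : i ≠ j) (c : F) (v : I6 → F) :
    Cfsg.quadFormPlus 3 F (klein (Matrix.SpecialLinearGroup.transvection hij c :
      Matrix.SpecialLinearGroup (Fin 4) F).1 *ᵥ v) = Cfsg.quadFormPlus 3 F v := by
  rw [← vec6_mat6 (klein _ *ᵥ v), mat6_klein]
  fin_cases i <;> fin_cases j <;>
    first
    | exact absurd rfl hij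
    | (simp [Cfsg.quadFormPlus, Fin.sum_univ_three, vec6, mat6, Matrix.mul_apply, Fin.sum_univ_four,
        CfsgLib.Classical.Linear.transvection_apply, Matrix.one_apply]; ring)

theorem klein_sl (g : Matrix.SpecialLinearGroup (Fin 4) F) :
    ∀ v : I6 → F, Cfsg.quadFormPlus 3 F (klein g.1 *ᵥ v) = Cfsg.quadFormPlus 3 F v := by
  refine CfsgLib.Classical.Linear.sl_induction
    (P := fun g => ∀ v : I6 → F,
      Cfsg.quadFormPlus 3 F (klein g.1 *ᵥ v) = Cfsg.quadFormPlus 3 F v) ?_ ?_ ?_ g
  · intro v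
    rw [show ((1 : Matrix.SpecialLinearGroup (Fin 4) F)).1 = 1 from rfl, map_one, one_mulVec]
  · exact fun i j hij c => klein_transvection i j hij c
  · intro A B hA hB v
    rw [Matrix.SpecialLinearGroup.coe_mul, map_mul, ← mulVec_mulVec, hA, hB]

/-- `SL₄` acting on the exterior square by isometries. -/
noncomputable def kleinHom :
    Matrix.SpecialLinearGroup (Fin 4) F →* Cfsg.isometryGroup F (Cfsg.quadFormPlus 3 F) :=
  ((Units.map (klein (F := F))).comp Matrix.SpecialLinearGroup.toGL).codRestrict _ fun g => fun u _ => by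
    exact klein_sl g u

theorem kleinHom_ne_one : (kleinHom : Matrix.SpecialLinearGroup (Fin 4) F →* _) ≠ 1 := by
  intro h
  have h1 : klein (Matrix.SpecialLinearGroup.transvection (show (0 : Fin 4) ≠ 1 by decide) 1 :
      Matrix.SpecialLinearGroup (Fin 4) F).1 = 1 :=
    congrArg (fun x : Cfsg.isometryGroup F (Cfsg.quadFormPlus 3 F) => x.1.val)
      (DFunLike.congr_fun h (Matrix.SpecialLinearGroup.transvection (show (0 : Fin 4) ≠ 1 by decide) 1))
  have h2 := congrFun (congrFun (mat6_klein (Matrix.SpecialLinearGroup.transvection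
    (show (0 : Fin 4) ≠ 1 by decide) 1 : Matrix.SpecialLinearGroup (Fin 4) F).1
      (Pi.single (.inr 2) 1)) 0) 2
  rw [h1, one_mulVec] at h2
  simp [mat6, Matrix.mul_apply, Fin.sum_univ_four, CfsgLib.Classical.Linear.transvection_apply,
    Matrix.one_apply, Pi.single_apply] at h2

end CfsgLib.OrthSmall
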