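import Cfsg.Agent.OrthSmall.Klein
import Cfsg.Agent.OrthSmall.FourMinus
import Cfsg.Agent.Classical.Orth.OrderStd
import Cfsg.Agent.Classical.Orth.CentreOmega
import Cfsg.Agent.S0791
import Cfsg.Agent.Classical.Unitary.Simple
import Cfsg.Agent.Classical.Unitary.Center

/-!
# `PΩ₆⁻(q) ≅ PSU₄(q)`: the `F`-form of the exterior square of a unitary space
-/

set_option autoImplicit false
set_option maxHeartbeats 1000000

namespace CfsgLib.OrthSmall

open Matrix CfsgLib.Classical.Orth CfsgLib.OrthGeo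

theorem card_pomega_minus_of_three_le {F : Type*} [Field F] [Fintype F] {q : ℕ}
    (hF : Fintype.card F = q) (m : ℕ) (hm : 3 ≤ m) (a b : F)
    (hab : ∀ z₁ z₂ : F, z₁ ^ 2 + a * z₁ * z₂ + b * z₂ ^ 2 = 0 → z₁ = 0 ∧ z₂ = 0) :
    Nat.gcd 4 (q ^ m + 1) * Nat.card (Cfsg.POmega F (Cfsg.quadFormMinus (m - 1) F a b)) =
      q ^ (m * (m - 1)) * (q ^ m + 1) * ∏ i ∈ Finset.range (m - 1), (q ^ (2 * (i + 1)) - 1) := by
  classical
  have hm1 : 1 ≤ m := by omega
  have hcard : Nat.card (Cfsg.isometryGroup F (Cfsg.quadFormMinus (m - 1) F a b)) =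
      2 * (q ^ (m * (m - 1)) * (q ^ m + 1) * ∏ i ∈ Finset.range (m - 1), (q ^ (2 * (i + 1)) - 1)) := by
    subst hF
    obtain ⟨k, rfl⟩ : ∃ k, m = k + 1 := ⟨m - 1, by omega⟩
    change Nat.card (Cfsg.isometryGroup F (Cfsg.quadFormMinus k F a b)) =
      2 * (Fintype.card F ^ ((k + 1) * k) * (Fintype.card F ^ (k + 1) + 1) * ∏ i ∈ Finset.range k, (Fintype.card F ^ (2 * (i + 1)) - 1))
    rw [card_isometryGroup_minus a b hab]
    simp only [evenProd]
    ring
  have hN := isNondegQF_quadFormMinus (F := F) (m - 1) a b hab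
  have hn : 5 ≤ Fintype.card ((Fin (m - 1) ⊕ Fin (m - 1)) ⊕ Fin 2) := by simp; omega
  have hexc : ¬ (Nat.card F = 2 ∧ Fintype.card ((Fin (m - 1) ⊕ Fin (m - 1)) ⊕ Fin 2) = 4) := fun h => by omega
  have h := card_pOmega_mul hN
  rw [hcard] at h
  have hq1 : 1 ≤ q := hF ▸ Fintype.card_pos
  have hp : 1 ≤ q ^ m := Nat.one_le_pow _ _ hq1
  by_cases h2 : (2 : F) = 0
  · rw [(card_center_omega hN hn).1 (Or.inr h2), mul_one, index_omega_even hN h2 (by omega) hexc] at h
    have h0 := FiniteField.even_card_of_char_two (F := F)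
      (CharP.ringChar_of_prime_eq_zero Nat.prime_two (by simpa using h2))
    have hev : q ^ m % 2 = 0 := by
      rw [Nat.pow_mod, ← hF, h0, zero_pow (by omega), Nat.zero_mod]
    have hg : Nat.gcd 4 (q ^ m + 1) = 1 := by
      have : (q ^ m + 1) % 2 = 1 := by omega
      rw [Nat.gcd_rec, Nat.gcd_rec]
      rcases (show (q ^ m + 1) % 4 = 1 ∨ (q ^ m + 1) % 4 = 3 by omega) with e | e <;> rw [e] <;> decide
    rw [hg]; omega
  · have hodd : Odd q := by
      rw [Nat.odd_iff, ← hF]
      exact FiniteField.odd_card_of_char_ne_two (fun hc => h2 (by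
        have := ringChar.Nat.cast_ringChar (R := F)
        rw [hc] at this
        exact_mod_cast this))
    have hiff := Cfsg.Agent.S0791.result hF hodd m hm1 a b hab
    rw [index_omega_odd hN h2 (by omega)] at h
    have hpo : q ^ m % 2 = 1 := Nat.odd_iff.1 hodd.pow
    by_cases h1 : q ^ m % 4 = 3
    · rw [(card_center_omega hN hn).2 (hiff.2 h1) h2] at h
      have hg : Nat.gcd 4 (q ^ m + 1) = 4 := Nat.gcd_eq_left (by omega)
      rw [hg]; omega
    · rw [(card_center_omega hN hn).1 (Or.inl (fun hh => h1 (hiff.1 hh)))] at h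
      have hg : Nat.gcd 4 (q ^ m + 1) = 2 := by
        rw [Nat.gcd_rec, show (q ^ m + 1) % 4 = 2 by omega]; rfl
      rw [hg]; omega

theorem klein_transpose {F : Type*} [Field F] (A : Matrix (Fin 4) (Fin 4) F) :
    (klein A)ᵀ = klein Aᵀ := by
  have e : ∀ B : Matrix (Fin 4) (Fin 4) F, ∀ i j : I6,
      klein B i j = vec6 (B * mat6 (Pi.single j 1) * Bᵀ) i := by
    intro B i j
    rw [← mat6_klein, vec6_mat6, mulVec_single_one]
    rfl
  ext i j
  rw [Matrix.transpose_apply, e, e]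
  rcases i with i | i <;> rcases j with j | j <;> fin_cases i <;> fin_cases j <;>
    simp [vec6, mat6, Matrix.mul_apply, Fin.sum_univ_four] <;> ring

theorem klein_map {F : Type*} [Field F] (σ : F →+* F) (A : Matrix (Fin 4) (Fin 4) F) :
    (klein A).map σ = klein (A.map σ) := by
  have e : ∀ B : Matrix (Fin 4) (Fin 4) F, ∀ i j : I6,
      klein B i j = vec6 (B * mat6 (Pi.single j 1) * Bᵀ) i := by
    intro B i j
    rw [← mat6_klein, vec6_mat6, mulVec_single_one]
    rfl
  ext i j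
  rw [Matrix.map_apply, e, e]
  rcases i with i | i <;> rcases j with j | j <;> fin_cases i <;> fin_cases j <;>
    simp [vec6, mat6, Matrix.mul_apply, Fin.sum_univ_four]

/-- The index type of the six-dimensional minus form. -/
abbrev I6m : Type := (Fin 2 ⊕ Fin 2) ⊕ Fin 2

variable {F K : Type*} [Field F] [Field K] [Algebra F K] {σ : K →ₐ[F] K} {r : K} {a b : F}

/-- The coordinates on the hyperbolic part: `d = (X₁, X₂)` and `t` solving the linear equations. -/
def solveT (a b : F) : (I6m → F) →ₗ[F] (Fin 2 → F) where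
  toFun v := ![((4 * b - a ^ 2)⁻¹) * (2 * b * (v (.inl (.inr 0)) - v (.inl (.inl 0)) - a * v (.inl (.inl 1)))
      - a * (v (.inl (.inr 1)) - b * v (.inl (.inl 1)))),
    ((4 * b - a ^ 2)⁻¹) * (2 * (v (.inl (.inr 1)) - b * v (.inl (.inl 1)))
      - a * (v (.inl (.inr 0)) - v (.inl (.inl 0)) - a * v (.inl (.inl 1))))]
  map_add' u v := by funext i; fin_cases i <;> simp <;> ring
  map_smul' c v := by funext i; fin_cases i <;> simp <;> ring

/-- The vector `t + d` of the hyperbolic part. -/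
def uPart (a b : F) : (I6m → F) →ₗ[F] (Fin 2 → F) :=
  solveT a b + LinearMap.funLeft F F (fun i => Sum.inl (Sum.inl i))

theorem uPart_apply (v : I6m → F) (i : Fin 2) :
    uPart a b v i = solveT a b v i + v (.inl (.inl i)) := rfl

/-- The three coordinates in `K`. -/
def coord3 (r ε : K) (a b : F) : (I6m → F) →ₗ[F] (Fin 3 → K) :=
  LinearMap.pi ![pairCoord r ∘ₗ uPart a b,
    LinearMap.mulLeft F ε ∘ₗ pairCoord r ∘ₗ solveT a b,
    pairCoord r ∘ₗ LinearMap.funLeft F F Sum.inr]

variable (σ) in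
/-- The vector of the exterior square with given three coordinates. -/
def twist6 : (Fin 3 → K) →ₗ[F] (I6 → K) where
  toFun x := Sum.elim x (fun i => σ (x i))
  map_add' x y := by funext i; rcases i with i | i <;> simp
  map_smul' c x := by funext i; rcases i with i | i <;> simp

theorem twist6_eq_of_swap {v : I6 → K} (h : ∀ k, v k.swap = σ (v k)) :
    twist6 σ (fun i => v (.inl i)) = v := by
  funext i
  rcases i with i | i
  · rfl
  · exact (h (.inl i)).symm

theorem Setting.twist6_swap (h : Setting σ r a b) (x : Fin 3 → K) (k : I6) :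
    twist6 σ x k.swap = σ (twist6 σ x k) := by
  rcases k with i | i
  · rfl
  · exact (h.invol _).symm

theorem Setting.disc_ne_zero (h : Setting σ r a b) : (4 * b - a ^ 2 : F) ≠ 0 := by
  intro hd
  apply h.ne
  have h0 : (σ r - r) * (σ r - r) = 0 := by
    have := congrArg (algebraMap F K) hd
    simp only [map_sub, map_mul, map_pow, map_ofNat, map_zero] at this
    linear_combination (σ r + r - algebraMap F K a) * h.sum - 4 * h.prod - this
  exact sub_eq_zero.1 (mul_self_eq_zero.1 h0)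

theorem Setting.norm_pairCoord (h : Setting σ r a b) (z : Fin 2 → F) :
    pairCoord r z * σ (pairCoord r z) =
      algebraMap F K (z 0 ^ 2 + a * z 0 * z 1 + b * z 1 ^ 2) := by
  simp [pairCoord, AlgHom.commutes]
  linear_combination (-(algebraMap F K (z 0) * algebraMap F K (z 1))) * h.sum +
    (algebraMap F K (z 1)) ^ 2 * h.prod

theorem Setting.quadForm_twist6 (h : Setting σ r a b) {ε : K} (hε : ε * σ ε = -1) (v : I6m → F) :
    Cfsg.quadFormPlus 3 K (twist6 σ (coord3 r ε a b v)) =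
      algebraMap F K (Cfsg.quadFormMinus 2 F a b v) := by
  have hu := h.norm_pairCoord (uPart a b v)
  have ht := h.norm_pairCoord (solveT a b v)
  have hz := h.norm_pairCoord (v ∘ Sum.inr)
  have e : Cfsg.quadFormPlus 3 K (twist6 σ (coord3 r ε a b v)) =
      pairCoord r (uPart a b v) *
        σ (pairCoord r (uPart a b v)) +
      (ε * σ ε) * (pairCoord r (solveT a b v) * σ (pairCoord r (solveT a b v))) +
      pairCoord r (v ∘ Sum.inr) * σ (pairCoord r (v ∘ Sum.inr)) := by
    simp [Cfsg.quadFormPlus, twist6, coord3, Fin.sum_univ_three, LinearMap.funLeft, Function.comp_def]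
    ring
  rw [e, hu, ht, hz, hε, neg_one_mul, ← map_neg, ← map_add, ← map_add]
  congr 1
  have hd := h.disc_ne_zero
  simp [Cfsg.quadFormMinus, solveT, uPart_apply, Fin.sum_univ_two]
  field_simp
  ring

theorem Setting.coord3_bijective [Fintype F] [Fintype K] (h : Setting σ r a b) {ε : K} (hε : ε ≠ 0) :
    Function.Bijective (coord3 r ε a b) := by
  classical
  refine (Nat.bijective_iff_injective_and_card _).2 ⟨?_, ?_⟩
  · rw [injective_iff_map_eq_zero]
    intro v hv
    have h0 := congrFun hv 0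
    have h1 := congrFun hv 1
    have h2 := congrFun hv 2
    simp [coord3] at h0 h1 h2
    have ht : solveT a b v = 0 := h.coord.1 ((h1.resolve_left hε).trans (map_zero _).symm)
    have hd : (fun i : Fin 2 => v (.inl (.inl i))) = 0 := by
      have := h.coord.1 ((show pairCoord r (uPart a b v) = 0 from h0).trans (map_zero _).symm)
      funext i
      simpa [uPart_apply, ht] using congrFun this i
    have hz : v ∘ Sum.inr = 0 := h.coord.1 ((show pairCoord r (v ∘ Sum.inr) = 0 from h2).trans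
      (map_zero _).symm)
    have a0 : v (.inl (.inl 0)) = 0 := congrFun hd 0
    have a1 : v (.inl (.inl 1)) = 0 := congrFun hd 1
    have t0 := congrFun ht 0
    have t1 := congrFun ht 1
    simp [solveT, a0, a1, h.disc_ne_zero] at t0 t1
    have b0 : v (.inl (.inr 0)) = 0 := by
      have : (4 * b - a ^ 2) * v (.inl (.inr 0)) = 0 := by linear_combination 2 * t0 + a * t1
      exact (mul_eq_zero.1 this).resolve_left h.disc_ne_zero
    have b1 : v (.inl (.inr 1)) = 0 := by
      have : (4 * b - a ^ 2) * v (.inl (.inr 1)) = 0 := by linear_combination a * t0 + (2 * b) * t1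
      exact (mul_eq_zero.1 this).resolve_left h.disc_ne_zero
    funext i
    rcases i with (i | i) | i
    · fin_cases i <;> assumption
    · fin_cases i <;> assumption
    · exact congrFun hz i
  · have hc : Nat.card K = Nat.card F ^ 2 := by
      rw [← Nat.card_congr (Equiv.ofBijective _ h.coord), Nat.card_fun, Nat.card_fin]
    rw [Nat.card_fun, Nat.card_fun, hc, Nat.card_fin, ← pow_mul]
    simp

theorem klein_su_swap {g : Matrix (Fin 4) (Fin 4) K} (hdet : g.det = 1)
    (hg : gᵀ.map σ * g = 1) {v : I6 → K}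
    (hv : ∀ k, v k.swap = σ (v k)) (k : I6) :
    (klein g *ᵥ v) k.swap = σ ((klein g *ᵥ v) k) := by
  have hp : ∀ w z : I6 → K, Cfsg.quadFormPlus 3 K (w + z) - Cfsg.quadFormPlus 3 K w -
      Cfsg.quadFormPlus 3 K z = ∑ l : I6, w l * z l.swap := by
    intro w z
    simp [Cfsg.quadFormPlus, Fintype.sum_sum_type, Fin.sum_univ_three]
    ring
  have hU : (klein g)ᵀ * (klein g).map σ = 1 := by
    have h1 : ((klein g).map σ)ᵀ * klein g = 1 := by
      rw [show (klein g).map σ = klein (g.map σ) from klein_map σ.toRingHom g, klein_transpose,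
        ← map_mul, show (g.map σ)ᵀ = gᵀ.map σ from rfl, hg, map_one]
    have := congrArg Matrix.transpose h1
    rwa [Matrix.transpose_mul, Matrix.transpose_transpose, Matrix.transpose_one] at this
  have hw : ∀ w : I6 → K, (∑ l : I6, w l * (klein g *ᵥ v) l.swap) =
      ∑ l : I6, w l * σ ((klein g *ᵥ v) l) := by
    intro w
    obtain ⟨u, rfl⟩ : ∃ u, klein g *ᵥ u = w := by
      refine ⟨klein (gᵀ.map σ) *ᵥ w, ?_⟩
      rw [mulVec_mulVec, ← map_mul, mul_eq_one_comm.1 hg, map_one, one_mulVec]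
    rw [← hp, ← mulVec_add, klein_sl ⟨g, hdet⟩ (u + v), klein_sl ⟨g, hdet⟩ u,
      klein_sl ⟨g, hdet⟩ v, hp]
    have hσ : (fun l => σ ((klein g *ᵥ v) l)) = (klein g).map σ *ᵥ (fun l => σ (v l)) := by
      funext l
      exact RingHom.map_mulVec σ.toRingHom (klein g) v l
    calc ∑ l : I6, u l * v l.swap = u ⬝ᵥ fun l => σ (v l) := by simp only [hv, dotProduct]
      _ = (klein g *ᵥ u) ⬝ᵥ ((klein g).map σ *ᵥ fun l => σ (v l)) := by
          rw [← vecMul_transpose, ← dotProduct_mulVec, mulVec_mulVec, hU, one_mulVec]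
      _ = _ := by rw [← hσ]; rfl
  have := hw (Pi.single k 1)
  simpa [Pi.single_apply] using this

theorem Setting.twist6_klein (h : Setting σ r a b) {g : Matrix (Fin 4) (Fin 4) K} (hdet : g.det = 1)
    (hg : gᵀ.map σ * g = 1) (x : Fin 3 → K) :
    twist6 σ (fun i => (klein g *ᵥ twist6 σ x) (.inl i)) = klein g *ᵥ twist6 σ x :=
  twist6_eq_of_swap (klein_su_swap hdet hg (h.twist6_swap x))

theorem exists_hom_of_stable {G : Type*} [Group G] (Φ : G →* Matrix I6 I6 K)
    (emb : (I6m → F) →ₗ[F] (I6 → K)) (proj : (I6 → K) →ₗ[F] (I6m → F)) (hpe : ∀ v, proj (emb v) = v)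
    (hstab : ∀ g v, emb (proj (Φ g *ᵥ emb v)) = Φ g *ᵥ emb v) :
    ∃ φ : G →* Matrix I6m I6m F, ∀ g v, emb (φ g *ᵥ v) = Φ g *ᵥ emb v := by
  let lin : G → ((I6m → F) →ₗ[F] (I6m → F)) := fun g =>
    proj ∘ₗ ((Φ g).mulVecLin.restrictScalars F) ∘ₗ emb
  have hlin : ∀ g v, emb (lin g v) = Φ g *ᵥ emb v := fun g v => hstab g v
  have hemb : Function.Injective emb := Function.LeftInverse.injective hpe
  refine ⟨{ toFun := fun g => LinearMap.toMatrix' (lin g), map_one' := ?_, map_mul' := ?_ },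
    fun g v => ?_⟩
  · rw [show lin 1 = LinearMap.id from LinearMap.ext fun v => hemb (by
      rw [hlin, map_one, one_mulVec, LinearMap.id_apply])]
    exact LinearMap.toMatrix'_id
  · intro g k
    rw [← LinearMap.toMatrix'_comp]
    congr 1
    refine LinearMap.ext fun v => hemb ?_
    show emb (lin (g * k) v) = emb (lin g (lin k v))
    rw [hlin, hlin, hlin, map_mul, ← mulVec_mulVec]
  · show emb (LinearMap.toMatrix' (lin g) *ᵥ v) = _
    rw [LinearMap.toMatrix'_mulVec, hlin]

theorem pomega_six_minus_equiv {F K : Type*} [Field F] [Fintype F] [Field K] [Fintype K] {q : ℕ}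
    (hF : Fintype.card F = q) (hK : Fintype.card K = q ^ 2) (a b : F)
    (hab : ∀ z₁ z₂ : F, z₁ ^ 2 + a * z₁ * z₂ + b * z₂ ^ 2 = 0 → z₁ = 0 ∧ z₂ = 0) :
    Nonempty (Cfsg.POmega F (Cfsg.quadFormMinus 2 F a b) ≃* Cfsg.PSU 4 K q) := by
  classical
  obtain ⟨alg, σ, r, hset, hσq⟩ := exists_setting hF hK a b hab
  letI := alg
  obtain ⟨ε, hε1⟩ := CfsgLib.Unitary.exists_norm_eq hK (a := (-1 : K))
    (by rw [CfsgLib.Unitary.neg_pow_q hK, one_pow])
  have hε : ε * σ ε = -1 := by rw [hσq, ← pow_succ', hε1]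
  have hε0 : ε ≠ 0 := fun h0 => by simp [h0] at hε
  let e3 := LinearEquiv.ofBijective (coord3 r ε a b) (hset.coord3_bijective hε0)
  have hsu : ∀ g : Cfsg.SU 4 K q, (g.1.1)ᵀ.map σ * g.1.1 = 1 := fun g => by
    have := CfsgLib.Unitary.conjTranspose_mul_self hK
      ((CfsgLib.Unitary.preserves_iff_orthonorm_cols hK g.1.1).1 g.2)
    rw [show (g.1.1)ᵀ.map σ = (g.1.1).transpose.map (fun x => x ^ q) from
      Matrix.ext fun i j => hσq _]
    exact this
  let Φ : Cfsg.SU 4 K q →* Matrix I6 I6 K :=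
    (klein (F := K)).comp ((Units.coeHom _).comp
      (Matrix.SpecialLinearGroup.toGL.comp (Cfsg.SU 4 K q).subtype))
  have hΦ : ∀ g, Φ g = klein g.1.1 := fun g => rfl
  obtain ⟨emb, he⟩ : ∃ emb : (I6m → F) →ₗ[F] (I6 → K), ∀ v, emb v = twist6 σ (coord3 r ε a b v) :=
    ⟨twist6 σ ∘ₗ coord3 r ε a b, fun v => rfl⟩
  obtain ⟨φ, hφ⟩ := exists_hom_of_stable Φ emb
    (e3.symm.toLinearMap ∘ₗ LinearMap.funLeft F K Sum.inl)
    (fun v => by rw [he]; exact e3.symm_apply_apply v) (fun g v => by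
      rw [he, he, hΦ, LinearMap.comp_apply]
      show twist6 σ (e3 (e3.symm _)) = _
      rw [e3.apply_symm_apply]
      exact hset.twist6_klein g.1.2 (hsu g) (coord3 r ε a b v))
  let f : Cfsg.SU 4 K q →* Cfsg.isometryGroup F (Cfsg.quadFormMinus 2 F a b) :=
    (MonoidHom.toHomUnits φ).codRestrict _ fun g => fun u _ => by
      show Cfsg.quadFormMinus 2 F a b (φ g *ᵥ u) = Cfsg.quadFormMinus 2 F a b u
      apply (algebraMap F K).injective
      rw [← hset.quadForm_twist6 hε, ← hset.quadForm_twist6 hε]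
      rw [← he, ← he, hφ, hΦ]
      exact klein_sl g.1 _
  have hf : f ≠ 1 := by
    intro h
    obtain ⟨t, ht, ht2⟩ := CfsgLib.Unitary.exists_norm_one_ne_inv hK
    have ht0 : t ≠ 0 := fun h0 => by
      rw [h0, zero_pow (Nat.succ_ne_zero q)] at ht; exact zero_ne_one ht
    have hd : (Matrix.diagonal ![t, t⁻¹, 1, 1] : Matrix (Fin 4) (Fin 4) K).det = 1 := by
      simp [Matrix.det_diagonal, Fin.prod_univ_four, ht0]
    have hmem : (⟨_, hd⟩ : Matrix.SpecialLinearGroup (Fin 4) K) ∈ Cfsg.SU 4 K q :=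
      CfsgLib.Unitary.mem_SU.2 (CfsgLib.Unitary.diagonal_preserves _ fun i => by
        fin_cases i <;> simp [ht])
    have h0 := DFunLike.congr_fun h (⟨_, hmem⟩ : Cfsg.SU 4 K q)
    have h1 : φ ⟨_, hmem⟩ = 1 := by
      have := congrArg (fun x : ↥(Cfsg.isometryGroup F (Cfsg.quadFormMinus 2 F a b)) => x.1.val) h0
      exact this
    obtain ⟨v, hv⟩ := e3.surjective ![0, 1, 0]
    have e := congrFun (congrFun (congrArg mat6 (hφ ⟨_, hmem⟩ v)) 0) 2
    rw [h1, one_mulVec, hΦ, mat6_klein, he, show coord3 r ε a b v = ![0, 1, 0] from hv] at e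
    simp [mat6, twist6, Matrix.mul_apply, Fin.sum_univ_four, Matrix.diagonal] at e
    apply ht2
    rw [← e]
    simp
  have hperf : commutator (Cfsg.SU 4 K q) = ⊤ :=
    CfsgLib.Unitary.commutator_SU_eq_top hK (by norm_num) (fun h => by omega)
  refine perfect_equiv_commutator_quotient hperf
    (CfsgLib.Unitary.isSimpleGroup_PSU hK (by norm_num) (fun h => by omega)) f hf ?_
  have h1 := card_pomega_minus_of_three_le hF 3 le_rfl a b hab
  have h2 := CfsgLib.Unitary.card_PSU hK (n := 4) (by norm_num)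
  have hg : Nat.gcd 4 (q ^ 3 + 1) = Nat.gcd 4 (q + 1) := by
    obtain ⟨w, hw⟩ : ∃ w, q * q + 1 = w + q ∧ Odd w := by
      rcases Nat.eq_zero_or_pos q with rfl | hq0
      · exact ⟨1, rfl, odd_one⟩
      obtain ⟨k, rfl⟩ : ∃ k, q = k + 1 := ⟨q - 1, by omega⟩
      obtain ⟨t, ht⟩ := Nat.even_mul_succ_self k
      exact ⟨2 * t + 1, by linear_combination ht, t, rfl⟩
    obtain ⟨hw1, hw2⟩ := hw
    rw [show q ^ 3 + 1 = (q + 1) * w by nlinarith [hw1]]
    refine Nat.Coprime.gcd_mul_right_cancel_right (q + 1) ?_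
    show Nat.Coprime w (2 ^ 2)
    exact Nat.Coprime.pow_right 2 (Nat.coprime_two_right.2 hw2)
  rw [hg] at h1
  simp [Finset.prod_range_succ, -Nat.card_eq_fintype_card, show ¬ Even 3 by decide] at h1 h2
  show Nat.card (Cfsg.POmega F (Cfsg.quadFormMinus 2 F a b)) = Nat.card (Cfsg.PSU 4 K q)
  apply Nat.eq_of_mul_eq_mul_left (Nat.mul_pos (Nat.gcd_pos_of_pos_left (q + 1) (by norm_num : 0 < 4))
    (Nat.succ_pos q))
  rw [Nat.succ_eq_add_one, mul_assoc (Nat.gcd 4 (q + 1)) (q + 1) (Nat.card (Cfsg.PSU 4 K q)), h2,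
    mul_comm (Nat.gcd 4 (q + 1)) (q + 1), mul_assoc, h1]
  ring

end CfsgLib.OrthSmall
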