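import Cfsg.Agent.OrthSmall.SixMinus
import Cfsg.Agent.SmallIso.UnitaryFourTwo
import Cfsg.Agent.SmallIso.FieldChange
import Cfsg.Agent.Classical.Orth.Omega
import Cfsg.Agent.OrthGeo.InvolutionTwo

/-!
A common Sylow two-subgroup of `S₈` and `O₆⁻(2)`, as a subgroup of their product.
-/

set_option autoImplicit false

namespace CfsgLib.SylowEightSix

open Matrix Cfsg

abbrev I6 : Type := (Fin 2 ⊕ Fin 2) ⊕ Fin 2

def permTable : List (List (Fin 8)) := [[0, 1, 2, 3, 4, 5, 6, 7], [1, 2, 3, 0, 4, 5, 6, 7], [3, 0, 1, 2, 4, 5, 6, 7], [0, 3, 2, 1, 4, 5, 6, 7], [4, 5, 6, 7, 0, 1, 2, 3], [2, 3, 0, 1, 4, 5, 6, 7], [3, 2, 1, 0, 4, 5, 6, 7], [5, 6, 7, 4, 0, 1, 2, 3], [1, 0, 3, 2, 4, 5, 6, 7], [7, 4, 5, 6, 0, 1, 2, 3], [4, 7, 6, 5, 0, 1, 2, 3], [4, 5, 6, 7, 1, 2, 3, 0], [4, 5, 6, 7, 3, 0, 1, 2], [4, 5, 6, 7, 0, 3, 2, 1], [2, 1, 0, 3, 4, 5, 6, 7], [6, 7, 4, 5, 0, 1, 2, 3], [7, 6, 5,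 4, 0, 1, 2, 3], [5, 6, 7, 4, 1, 2, 3, 0], [5, 6, 7, 4, 3, 0, 1, 2], [5, 6, 7, 4, 0, 3, 2, 1], [5, 4, 7, 6, 0, 1, 2, 3], [7, 4, 5, 6, 1, 2, 3, 0], [7, 4, 5, 6, 3, 0, 1, 2], [7, 4, 5, 6, 0, 3, 2, 1], [4, 7, 6, 5, 1, 2, 3, 0], [4, 7, 6, 5, 3, 0, 1, 2], [4, 7, 6, 5, 0, 3, 2, 1], [4, 5, 6, 7, 2, 3, 0, 1], [4, 5, 6, 7, 3, 2, 1, 0], [0, 1, 2, 3, 5, 6, 7, 4], [4, 5, 6, 7, 1, 0, 3, 2], [0, 1, 2, 3, 7, 4, 5, 6], [0, 1, 2, 3, 4, 7, 6, 5], [6, 5, 4, 7, 0, 1, 2, 3], [6, 7, 4, 5, 1, 2, 3, 0], [6, 7, 4, 5, 3, 0, 1, 2], [6, 7, 4, 5, 0, 3, 2, 1], [7, 6, 5, 4, 1, 2, 3, 0], [7, 6, 5, 4, 3, 0, 1, 2], [7, 6, 5, 4, 0, 3, 2, 1], [5, 6, 7, 4, 2, 3, 0, 1], [5, 6, 7, 4, 3, 2, 1, 0], [1, 2, 3, 0, 5, 6, 7, 4], [5, 6, 7, 4, 1, 0, 3, 2], [1, 2, 3, 0, 7, 4, 5, 6], [1, 2, 3, 0, 4, 7, 6, 5], [5, 4, 7, 6, 1, 2, 3, 0], [5, 4, 7, 6, 3, 0, 1, 2], [5, 4, 7, 6, 0, 3, 2, 1], [7, 4, 5, 6, 2, 3, 0, 1], [7, 4,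 5, 6, 3, 2, 1, 0], [3, 0, 1, 2, 5, 6, 7, 4], [7, 4, 5, 6, 1, 0, 3, 2], [3, 0, 1, 2, 7, 4, 5, 6], [3, 0, 1, 2, 4, 7, 6, 5], [4, 7, 6, 5, 2, 3, 0, 1], [4, 7, 6, 5, 3, 2, 1, 0], [0, 3, 2, 1, 5, 6, 7, 4], [4, 7, 6, 5, 1, 0, 3, 2], [0, 3, 2, 1, 7, 4, 5, 6], [0, 3, 2, 1, 4, 7, 6, 5], [4, 5, 6, 7, 2, 1, 0, 3], [0, 1, 2, 3, 6, 7, 4, 5], [0, 1, 2, 3, 7, 6, 5, 4], [0, 1, 2, 3, 5, 4, 7, 6], [6, 5, 4, 7, 1, 2, 3, 0], [6, 5, 4, 7, 3, 0, 1, 2], [6, 5, 4, 7, 0, 3, 2, 1], [6, 7, 4, 5, 2, 3, 0, 1], [6, 7, 4, 5, 3, 2, 1, 0], [2, 3, 0, 1, 5, 6, 7, 4], [6, 7, 4, 5, 1, 0, 3, 2], [2, 3, 0, 1, 7, 4, 5, 6], [2, 3, 0, 1, 4, 7, 6, 5], [7, 6, 5, 4, 2, 3, 0, 1], [7, 6, 5, 4, 3, 2, 1, 0], [3, 2, 1, 0, 5, 6, 7, 4], [7, 6, 5, 4, 1, 0, 3, 2], [3, 2, 1, 0, 7, 4, 5, 6], [3, 2, 1, 0, 4, 7, 6, 5], [5, 6, 7, 4, 2, 1, 0, 3], [1, 2, 3, 0, 6, 7, 4, 5], [1, 2, 3, 0, 7, 6, 5, 4], [1, 2, 3, 0, 5, 4, 7, 6], [5,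 4, 7, 6, 2, 3, 0, 1], [5, 4, 7, 6, 3, 2, 1, 0], [1, 0, 3, 2, 5, 6, 7, 4], [5, 4, 7, 6, 1, 0, 3, 2], [1, 0, 3, 2, 7, 4, 5, 6], [1, 0, 3, 2, 4, 7, 6, 5], [7, 4, 5, 6, 2, 1, 0, 3], [3, 0, 1, 2, 6, 7, 4, 5], [3, 0, 1, 2, 7, 6, 5, 4], [3, 0, 1, 2, 5, 4, 7, 6], [4, 7, 6, 5, 2, 1, 0, 3], [0, 3, 2, 1, 6, 7, 4, 5], [0, 3, 2, 1, 7, 6, 5, 4], [0, 3, 2, 1, 5, 4, 7, 6], [0, 1, 2, 3, 6, 5, 4, 7], [6, 5, 4, 7, 2, 3, 0, 1], [6, 5, 4, 7, 3, 2, 1, 0], [2, 1, 0, 3, 5, 6, 7, 4], [6, 5, 4, 7, 1, 0, 3, 2], [2, 1, 0, 3, 7, 4, 5, 6], [2, 1, 0, 3, 4, 7, 6, 5], [6, 7, 4, 5, 2, 1, 0, 3], [2, 3, 0, 1, 6, 7, 4, 5], [2, 3, 0, 1, 7, 6, 5, 4], [2, 3, 0, 1, 5, 4, 7, 6], [7, 6, 5, 4, 2, 1, 0, 3], [3, 2, 1, 0, 6, 7, 4, 5], [3, 2, 1, 0, 7, 6, 5, 4], [3, 2, 1, 0, 5, 4, 7, 6], [1, 2, 3, 0, 6, 5, 4, 7], [5, 4, 7, 6, 2, 1, 0, 3], [1, 0, 3, 2, 6, 7, 4, 5], [1, 0, 3, 2, 7, 6, 5, 4], [1, 0, 3, 2, 5, 4, 7, 6],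 [3, 0, 1, 2, 6, 5, 4, 7], [0, 3, 2, 1, 6, 5, 4, 7], [6, 5, 4, 7, 2, 1, 0, 3], [2, 1, 0, 3, 6, 7, 4, 5], [2, 1, 0, 3, 7, 6, 5, 4], [2, 1, 0, 3, 5, 4, 7, 6], [2, 3, 0, 1, 6, 5, 4, 7], [3, 2, 1, 0, 6, 5, 4, 7], [1, 0, 3, 2, 6, 5, 4, 7], [2, 1, 0, 3, 6, 5, 4, 7]]
def colTable : List (List ℕ) := [[1, 2, 4, 8, 16, 32], [6, 9, 23, 27, 16, 63], [21, 26, 27, 23, 16, 51], [1, 2, 23, 27, 16, 51], [1, 2, 39, 43, 19, 32], [30, 29, 8, 4, 16, 44], [21, 26, 4, 8, 16, 44], [37, 42, 55, 59, 19, 60], [6, 9, 8, 4, 16, 32], [53, 58, 59, 55, 19, 48], [1, 2, 55, 59, 19, 48], [6, 9, 39, 43, 31, 63], [21, 26, 39, 43, 31, 51], [1, 2, 39, 43, 19, 51], [30, 29, 27, 23, 16, 63], [29, 30, 43, 39, 19, 44], [53, 58, 39, 43, 19, 44], [46, 45, 55, 59, 31, 35], [61, 62, 55, 59, 31, 47], [37, 42, 55, 59, 19, 47], [37, 42, 43, 39, 19, 32], [62, 61, 59, 55, 31, 47], [45, 46, 59, 55, 31, 35], [53, 58, 59,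 55, 19, 35], [6, 9, 55, 59, 31, 47], [21, 26, 55, 59, 31, 35], [1, 2, 55, 59, 19, 35], [30, 29, 39, 43, 19, 44], [21, 26, 39, 43, 31, 44], [37, 42, 4, 8, 28, 60], [6, 9, 39, 43, 31, 32], [53, 58, 4, 8, 28, 48], [1, 2, 4, 8, 16, 48], [29, 30, 59, 55, 19, 60], [26, 21, 43, 39, 31, 51], [9, 6, 43, 39, 31, 63], [29, 30, 43, 39, 19, 63], [62, 61, 39, 43, 31, 51], [45, 46, 39, 43, 31, 63], [53, 58, 39, 43, 19, 63], [58, 53, 55, 59, 19, 48], [61, 62, 55, 59, 31, 48], [46, 45, 23, 27, 28, 35], [46, 45, 55, 59, 31, 60], [62, 61, 23, 27, 28, 47], [6, 9, 23, 27, 16, 47], [46, 45, 43, 39, 31, 63], [61, 62, 43, 39, 31, 51], [37, 42, 43, 39, 19, 51], [42, 37, 59, 55, 19, 60], [45, 46, 59, 55, 31, 60], [61, 62, 27, 23, 28, 47], [62, 61, 59, 55, 31, 48], [45, 46, 27, 23, 28, 35], [21, 26, 27, 23, 16, 35], [30, 29, 55, 59, 19, 60], [21, 26, 55, 59, 31, 60], [37, 42, 23, 27, 28, 47], [6,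 9, 55, 59, 31, 48], [53, 58, 23, 27, 28, 35], [1, 2, 23, 27, 16, 35], [30, 29, 39, 43, 19, 63], [29, 30, 4, 8, 16, 44], [53, 58, 4, 8, 28, 44], [37, 42, 4, 8, 28, 32], [26, 21, 59, 55, 31, 35], [9, 6, 59, 55, 31, 47], [29, 30, 59, 55, 19, 47], [2, 1, 43, 39, 19, 32], [9, 6, 43, 39, 31, 32], [58, 53, 8, 4, 28, 48], [26, 21, 43, 39, 31, 44], [42, 37, 8, 4, 28, 60], [30, 29, 8, 4, 16, 60], [42, 37, 39, 43, 19, 32], [45, 46, 39, 43, 31, 32], [61, 62, 4, 8, 28, 48], [62, 61, 39, 43, 31, 44], [45, 46, 4, 8, 28, 60], [21, 26, 4, 8, 16, 60], [58, 53, 55, 59, 19, 35], [26, 21, 23, 27, 16, 51], [62, 61, 23, 27, 28, 51], [46, 45, 23, 27, 28, 63], [58, 53, 43, 39, 19, 44], [61, 62, 43, 39, 31, 44], [46, 45, 8, 4, 28, 60], [46, 45, 43, 39, 31, 32], [62, 61, 8, 4, 28, 48], [6, 9, 8, 4, 16, 48], [42, 37, 59, 55, 19, 47], [9, 6, 27, 23, 16, 63], [45, 46, 27, 23, 28, 63], [61, 62, 27,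 23, 28, 51], [30, 29, 55, 59, 19, 47], [29, 30, 23, 27, 16, 63], [53, 58, 23, 27, 28, 63], [37, 42, 23, 27, 28, 51], [29, 30, 4, 8, 16, 60], [2, 1, 59, 55, 19, 48], [9, 6, 59, 55, 31, 48], [58, 53, 27, 23, 28, 35], [26, 21, 59, 55, 31, 60], [42, 37, 27, 23, 28, 47], [30, 29, 27, 23, 16, 47], [2, 1, 43, 39, 19, 51], [2, 1, 8, 4, 16, 32], [42, 37, 8, 4, 28, 32], [58, 53, 8, 4, 28, 44], [42, 37, 39, 43, 19, 51], [9, 6, 4, 8, 16, 32], [45, 46, 4, 8, 28, 32], [61, 62, 4, 8, 28, 44], [26, 21, 23, 27, 16, 35], [58, 53, 43, 39, 19, 63], [26, 21, 8, 4, 16, 44], [62, 61, 8, 4, 28, 44], [46, 45, 8, 4, 28, 32], [9, 6, 27, 23, 16, 47], [29, 30, 23, 27, 16, 47], [2, 1, 59, 55, 19, 35], [2, 1, 27, 23, 16, 51], [42, 37, 27, 23, 28, 51], [58, 53, 27, 23, 28, 63], [2, 1, 8, 4, 16, 48], [9, 6, 4, 8, 16, 48], [26, 21, 8, 4, 16, 60], [2, 1, 27, 23, 16, 35]]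
def invTable : List (Fin 128) := [0, 2, 1, 3, 4, 5, 6, 12, 8, 11, 13, 9, 7, 10, 14, 27, 28, 22, 18, 25, 30, 21, 17, 24, 23, 19, 26, 15, 16, 31, 20, 29, 32, 61, 49, 40, 55, 50, 41, 56, 35, 38, 53, 47, 51, 54, 52, 43, 58, 34, 37, 44, 46, 42, 45, 36, 39, 59, 48, 57, 60, 33, 62, 63, 64, 90, 80, 94, 68, 74, 72, 84, 70, 73, 69, 75, 78, 85, 76, 79, 66, 91, 92, 93, 71, 77, 88, 87, 86, 89, 65, 81, 82, 83, 67, 95, 96, 97, 98, 105, 109, 103, 114, 101, 104, 99, 106, 107, 108, 100, 110, 111, 112, 118, 102, 115, 116, 117, 113, 119, 120, 121, 122, 123, 124, 125, 126, 127]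
def nextTable : List (List (Fin 128)) := [[1, 5, 0, 8, 11, 2, 3, 17, 14, 21, 24, 27, 4, 30, 6, 34, 37, 40, 7, 43, 46, 49, 9, 52, 55, 10, 58, 12, 13, 42, 61, 44, 45, 65, 68, 15, 71, 74, 16, 77, 18, 19, 70, 80, 72, 73, 84, 20, 87, 22, 23, 29, 90, 31, 32, 25, 26, 86, 94, 88, 89, 28, 81, 82, 83, 99, 33, 102, 35, 36, 51, 105, 53, 54, 38, 39, 57, 109, 59, 60, 41, 106, 107, 108, 47, 48, 101, 114, 103, 104, 50, 62, 63, 64, 56, 115, 116, 117, 113, 66, 67, 76, 120, 78, 79, 69, 91, 92, 93, 75, 95, 96, 97, 124, 85, 121, 122, 123, 98, 126, 100, 110, 111, 112, 118, 119, 127, 125], [2, 0, 5, 6, 12, 1, 14, 18, 3, 22, 25, 4, 27, 28, 8, 35, 38, 7, 40, 41, 47, 9, 49, 50, 10, 55, 56, 11, 61, 51, 13, 53, 54, 66, 15, 68, 69, 16, 74, 75, 17, 80, 29, 19, 31, 32, 20, 84, 85, 21, 90, 70, 23, 72, 73, 24, 94, 76, 26, 78, 79, 30, 91, 92, 93, 33, 99, 100, 34, 105, 42, 36, 44, 45, 37, 109, 101, 39,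 103, 104, 43, 62, 63, 64, 46, 114, 57, 48, 59, 60, 52, 106, 107, 108, 58, 110, 111, 112, 118, 65, 120, 86, 67, 88, 89, 71, 81, 82, 83, 77, 121, 122, 123, 98, 87, 95, 96, 97, 124, 125, 102, 115, 116, 117, 113, 127, 119, 126], [3, 6, 8, 0, 13, 14, 1, 19, 2, 23, 26, 28, 30, 4, 5, 36, 39, 41, 43, 7, 48, 50, 52, 9, 56, 58, 10, 61, 11, 57, 12, 59, 60, 67, 69, 71, 15, 75, 77, 16, 80, 17, 76, 18, 78, 79, 85, 87, 20, 90, 21, 86, 22, 88, 89, 94, 24, 29, 25, 31, 32, 27, 95, 96, 97, 100, 102, 33, 105, 34, 101, 35, 103, 104, 109, 37, 42, 38, 44, 45, 40, 110, 111, 112, 114, 46, 51, 47, 53, 54, 49, 115, 116, 117, 55, 62, 63, 64, 119, 120, 65, 70, 66, 72, 73, 68, 121, 122, 123, 74, 81, 82, 83, 125, 84, 91, 92, 93, 126, 98, 99, 106, 107, 108, 127, 113, 118, 124], [4, 7, 9, 10, 0, 15, 16, 1, 20, 2, 3, 29, 31, 32, 33, 5, 6, 42, 44, 45, 8, 51, 53, 54, 57, 59, 60, 62, 63, 11, 64, 12, 13,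 14, 70, 72, 73, 76, 78, 79, 81, 82, 17, 83, 18, 19, 86, 88, 89, 91, 92, 21, 93, 22, 23, 95, 96, 24, 97, 25, 26, 98, 27, 28, 30, 101, 103, 104, 106, 107, 34, 108, 35, 36, 110, 111, 37, 112, 38, 39, 113, 40, 41, 43, 115, 116, 46, 117, 47, 48, 118, 49, 50, 52, 119, 55, 56, 58, 61, 121, 122, 65, 123, 66, 67, 124, 68, 69, 71, 125, 74, 75, 77, 80, 126, 84, 85, 87, 90, 94, 127, 99, 100, 102, 105, 109, 114, 120]]
def parentTable : List (Fin 4 × Fin 128) := [(0, 0), (0, 0), (1, 0), (2, 0), (3, 0), (0, 1), (2, 1), (3, 1), (2, 2), (3, 2), (3, 3), (0, 4), (1, 4), (2, 4), (2, 5), (3, 5), (3, 6), (0, 7), (1, 7), (2, 7), (3, 8), (0, 9), (1, 9), (2, 9), (0, 10), (1, 10), (2, 10), (0, 11), (2, 11), (3, 11), (2, 12), (3, 12), (3, 13), (3, 14), (0, 15), (1, 15), (2, 15), (0, 16), (1, 16), (2, 16), (0, 17), (2, 17), (3, 17), (2, 18), (3, 18), (3, 19), (0, 20), (1, 20), (2, 20), (0, 21),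 (2, 21), (3, 21), (2, 22), (3, 22), (3, 23), (0, 24), (2, 24), (3, 24), (2, 25), (3, 25), (3, 26), (2, 27), (3, 27), (3, 28), (3, 30), (0, 33), (1, 33), (2, 33), (0, 34), (2, 34), (3, 34), (2, 35), (3, 35), (3, 36), (0, 37), (2, 37), (3, 37), (2, 38), (3, 38), (3, 39), (2, 40), (3, 40), (3, 41), (3, 43), (0, 46), (2, 46), (3, 46), (2, 47), (3, 47), (3, 48), (2, 49), (3, 49), (3, 50), (3, 52), (2, 55), (3, 55), (3, 56), (3, 58), (3, 61), (0, 65), (2, 65), (3, 65), (2, 66), (3, 66), (3, 67), (2, 68), (3, 68), (3, 69), (3, 71), (2, 74), (3, 74), (3, 75), (3, 77), (3, 80), (2, 84), (3, 84), (3, 85), (3, 87), (3, 90), (3, 94), (2, 99), (3, 99), (3, 100), (3, 102), (3, 105), (3, 109), (3, 114), (3, 120)]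

/-- The position of a coordinate. -/
def pos : I6 → ℕ := Sum.elim (Sum.elim (fun i => i.1) (fun i => 2 + i.1)) (fun i => 4 + i.1)

/-- The vector with a given code. -/
def vecOf (n : ℕ) : I6 → ZMod 2 := fun i => ((n / 2 ^ pos i % 2 : ℕ) : ZMod 2)

/-- The matrix part of an element. -/
def mat (i : Fin 128) : Matrix I6 I6 (ZMod 2) :=
  Matrix.of fun r c => vecOf ((colTable.getD i.1 []).getD (pos c) 0) r

/-- The permutation part of an element, as a function. -/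
def pfun (i : Fin 128) : Fin 8 → Fin 8 := fun x => (permTable.getD i.1 []).getD x.1 0

/-- The inverse of an element. -/
def inv (i : Fin 128) : Fin 128 := invTable.getD i.1 0

/-- Left multiplication by a generator. -/
def next (g : Fin 4) (i : Fin 128) : Fin 128 := (nextTable.getD g.1 []).getD i.1 0

/-- The index of a generator. -/
def genIdx (g : Fin 4) : Fin 128 := ⟨g.1 + 1, by omega⟩

/-- The quadratic form. -/
def qf : (I6 → ZMod 2) → ZMod 2 := quadFormMinus 2 (ZMod 2) 1 1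

theorem pfun_inv : ∀ i x, pfun i (pfun (inv i) x) = x ∧ pfun (inv i) (pfun i x) = x := by decide +kernel

theorem mat_inv : ∀ i, mat i * mat (inv i) = 1 ∧ mat (inv i) * mat i = 1 := by decide +kernel

theorem mat_next : ∀ g i, mat (genIdx g) * mat i = mat (next g i) := by decide +kernel

theorem pfun_next : ∀ g i x, pfun (genIdx g) (pfun i x) = pfun (next g i) x := by decide +kernel

theorem mat_qf_gen : ∀ g v, qf (mat (genIdx g) *ᵥ v) = qf v := by decide +kernel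

theorem parent_spec : ∀ i : Fin 128, i = 0 ∨ ((parentTable.getD i.1 (0, 0)).2 < i ∧
    next (parentTable.getD i.1 (0, 0)).1 (parentTable.getD i.1 (0, 0)).2 = i) := by decide +kernel

theorem mat_zero : mat 0 = 1 := by decide +kernel

theorem pfun_zero : ∀ x, pfun 0 x = x := by decide +kernel

theorem mat_injective : ∀ i j, mat i = mat j → i = j := by
  have h : ∀ i j : Fin 128, i ≠ j → colTable.getD i.1 [] ≠ colTable.getD j.1 [] := by decide +kernel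
  have hb : ∀ i : Fin 128, (colTable.getD i.1 []) = (List.range 6).map (fun c =>
      ∑ r : I6, (mat i r ((![Sum.inl (Sum.inl 0), Sum.inl (Sum.inl 1), Sum.inl (Sum.inr 0),
        Sum.inl (Sum.inr 1), Sum.inr 0, Sum.inr 1] : Fin 6 → I6) (Fin.ofNat 6 c))).val * 2 ^ pos r) := by
    decide +kernel
  intro i j hij
  by_contra hne
  exact h i j hne (by rw [hb i, hb j, hij])

theorem pfun_injective : ∀ i j, (∀ x, pfun i x = pfun j x) → i = j := by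
  have h : ∀ i j : Fin 128, i ≠ j → List.ofFn (pfun i) ≠ List.ofFn (pfun j) := by decide +kernel
  intro i j hij
  by_contra hne
  exact h i j hne (by rw [funext hij])

section

variable {K : Type*} [Field K] (e : ZMod 2 ≃+* K)

/-- The permutation part. -/
def perm (i : Fin 128) : Equiv.Perm (Fin 8) :=
  ⟨pfun i, pfun (inv i), fun x => (pfun_inv i x).2, fun x => (pfun_inv i x).1⟩

/-- The matrix part over a field with two elements. -/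
def glPart (i : Fin 128) : GL I6 K :=
  Units.map e.toRingHom.mapMatrix.toMonoidHom ⟨mat i, mat (inv i), (mat_inv i).1, (mat_inv i).2⟩

theorem glPart_coe (i : Fin 128) : (glPart e i : Matrix I6 I6 K) = e.toRingHom.mapMatrix (mat i) := rfl

theorem perm_next (g : Fin 4) (i : Fin 128) : perm (genIdx g) * perm i = perm (next g i) :=
  Equiv.ext fun x => pfun_next g i x

theorem glPart_next (g : Fin 4) (i : Fin 128) : glPart e (genIdx g) * glPart e i = glPart e (next g i) :=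
  Units.ext (by rw [Units.val_mul, glPart_coe, glPart_coe, glPart_coe, ← map_mul, mat_next])

theorem map_sq_eq (u : ZMod 2) : e u ^ 2 = e u := by
  have h : ∀ u : ZMod 2, u ^ 2 = u := by decide
  rw [← map_pow, h]

theorem qf_map (v : I6 → ZMod 2) : quadFormMinus 2 K 1 1 (e ∘ v) = e (qf v) := by
  simp [qf, quadFormMinus, map_sum, map_sq_eq]

/-- Some product of generators. -/
def el (i : Fin 128) : Equiv.Perm (Fin 8) × GL I6 K := (perm i, glPart e i)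

/-- The generated subgroup. -/
abbrev common : Subgroup (Equiv.Perm (Fin 8) × GL I6 K) :=
  Subgroup.closure (Set.range fun g : Fin 4 => el e (genIdx g))

theorem el_mem (i : Fin 128) : el e i ∈ common e := by
  induction i using WellFoundedLT.induction with
  | _ i ih =>
    rcases parent_spec i with rfl | ⟨hlt, heq⟩
    · have : el e 0 = 1 := Prod.ext (Equiv.ext fun x => pfun_zero x) (Units.ext (by
        show (glPart e 0 : Matrix I6 I6 K) = 1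
        rw [glPart_coe, mat_zero, map_one]))
      rw [this]; exact one_mem _
    · rw [← heq]
      have : el e (next (parentTable.getD i.1 (0, 0)).1 (parentTable.getD i.1 (0, 0)).2) =
          el e (genIdx (parentTable.getD i.1 (0, 0)).1) * el e (parentTable.getD i.1 (0, 0)).2 :=
        Prod.ext (perm_next _ _).symm (glPart_next e _ _).symm
      rw [this]
      exact mul_mem (Subgroup.subset_closure ⟨_, rfl⟩) (ih _ hlt)

theorem gen_inv : ∀ g : Fin 4, inv (genIdx g) = genIdx (![1, 0, 2, 3] g) := by decide +kernel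

theorem el_inv (i : Fin 128) : (el e i)⁻¹ = el e (inv i) := by
  have h : ∀ j, inv (inv j) = j := by decide +kernel
  refine Prod.ext (Equiv.ext fun x => ?_) (Units.ext ?_)
  · rfl
  · show e.toRingHom.mapMatrix (mat (inv i)) = (glPart e (inv i) : Matrix I6 I6 K)
    rfl

theorem exists_of_mem {x : Equiv.Perm (Fin 8) × GL I6 K} (hx : x ∈ common e) : ∃ i, el e i = x := by
  induction hx using Subgroup.closure_induction_left with
  | one => exact ⟨0, Prod.ext (Equiv.ext fun x => pfun_zero x) (Units.ext (by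
      show (glPart e 0 : Matrix I6 I6 K) = 1
      rw [glPart_coe, mat_zero, map_one]))⟩
  | mul_left y hy z _ ih =>
    obtain ⟨g, rfl⟩ := hy
    obtain ⟨i, rfl⟩ := ih
    exact ⟨next g i, Prod.ext (perm_next g i).symm (glPart_next e g i).symm⟩
  | inv_mul_cancel y hy z _ ih =>
    obtain ⟨g, rfl⟩ := hy
    obtain ⟨i, rfl⟩ := ih
    rw [el_inv, gen_inv]
    exact ⟨next _ i, Prod.ext (perm_next _ i).symm (glPart_next e _ i).symm⟩

theorem card_common : Nat.card (common e) = 128 := by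
  rw [← SetLike.coe_sort_coe, show ((common e : Subgroup _) : Set _) = Set.range (el e) from Set.ext fun x =>
      ⟨fun hx => exists_of_mem e hx, fun ⟨i, hi⟩ => hi ▸ el_mem e i⟩,
    Nat.card_range_of_injective fun i j h => pfun_injective i j fun x => Equiv.congr_fun (congrArg Prod.fst h) x,
    Nat.card_fin]

/-- The projection to `S₈`. -/
def toPerm : common e →* Equiv.Perm (Fin 8) := (MonoidHom.fst _ _).comp (common e).subtype

theorem gen_isometry (g : Fin 4) : glPart e (genIdx g) ∈ isometryGroup K (quadFormMinus 2 K 1 1) := by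
  refine CfsgLib.OrthGeo.mem_isometryGroup.2 fun v => ?_
  obtain ⟨v', rfl⟩ : ∃ v', e ∘ v' = v := ⟨e.symm ∘ v, by ext; simp⟩
  rw [glPart_coe]
  have : e.toRingHom.mapMatrix (mat (genIdx g)) *ᵥ (e ∘ v') = e ∘ (mat (genIdx g) *ᵥ v') :=
    funext fun i => (RingHom.map_mulVec e.toRingHom _ v' i).symm
  rw [this, qf_map, qf_map, mat_qf_gen]

/-- The projection to `O₆⁻(2)`. -/
def toOrth : common e →* isometryGroup K (quadFormMinus 2 K 1 1) :=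
  ((MonoidHom.snd _ _).comp (common e).subtype).codRestrict _ fun x => by
    have : (common e).map (MonoidHom.snd _ _) ≤ isometryGroup K (quadFormMinus 2 K 1 1) := by
      rw [common, MonoidHom.map_closure, Subgroup.closure_le]
      rintro _ ⟨_, ⟨g, rfl⟩, rfl⟩
      exact gen_isometry e g
    exact this ⟨x.1, x.2, rfl⟩

theorem toPerm_injective : Function.Injective (toPerm e) := by
  rintro ⟨x, hx⟩ ⟨y, hy⟩ h
  obtain ⟨i, rfl⟩ := exists_of_mem e hx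
  obtain ⟨j, rfl⟩ := exists_of_mem e hy
  obtain rfl := pfun_injective i j fun x => Equiv.congr_fun h x
  rfl

theorem toOrth_injective : Function.Injective (toOrth e) := by
  rintro ⟨x, hx⟩ ⟨y, hy⟩ h
  obtain ⟨i, rfl⟩ := exists_of_mem e hx
  obtain ⟨j, rfl⟩ := exists_of_mem e hy
  have h' : e.toRingHom.mapMatrix (mat i) = e.toRingHom.mapMatrix (mat j) :=
    congrArg (fun z : isometryGroup K (quadFormMinus 2 K 1 1) => ((z : GL I6 K) : Matrix I6 I6 K)) h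
  obtain rfl := mat_injective i j (Matrix.map_injective e.injective h')
  rfl

/-- The transvection at a vector. -/
def transv (a : ℕ) : Matrix I6 I6 (ZMod 2) :=
  1 + vecMulVec (vecOf a) (fun k => qf (Pi.single k 1 + vecOf a) + qf (Pi.single k 1) + qf (vecOf a))

theorem transv_spec : ∀ a ∈ [7, 11, 19, 32, 35],
    transv a * transv a = 1 ∧ transv a ≠ 1 ∧ ∀ v, qf (transv a *ᵥ v) = qf v := by decide +kernel

theorem gen_decomp : mat (genIdx 0) = transv 7 * transv 11 * transv 19 ∧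
    mat (genIdx 2) = transv 19 ∧ mat (genIdx 3) = transv 32 * transv 35 := by decide +kernel

theorem anisotropic (e : ZMod 2 ≃+* K) :
    ∀ z₁ z₂ : K, z₁ ^ 2 + 1 * z₁ * z₂ + 1 * z₂ ^ 2 = 0 → z₁ = 0 ∧ z₂ = 0 := by
    have h : ∀ u v : ZMod 2, u ^ 2 + 1 * u * v + 1 * v ^ 2 = 0 → u = 0 ∧ v = 0 := by decide
    intro z₁ z₂ hz
    obtain ⟨u, rfl⟩ := e.surjective z₁
    obtain ⟨v, rfl⟩ := e.surjective z₂
    rw [← map_one e, ← map_pow, ← map_pow, ← map_mul, ← map_mul, ← map_mul, ← map_add, ← map_add,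
      map_eq_zero_iff _ e.injective] at hz
    obtain ⟨rfl, rfl⟩ := h u v hz
    exact ⟨map_zero e, map_zero e⟩

theorem isNondeg [Finite K] (e : ZMod 2 ≃+* K) :
    Geo.IsNondegenerateQuadraticForm (quadFormMinus 2 K (1 : K) 1) :=
  CfsgLib.Classical.Orth.isNondegQF_quadFormMinus 2 1 1 (anisotropic e)

theorem two_zero (e : ZMod 2 ≃+* K) : (2 : K) = 0 := by
  have h : (2 : ZMod 2) = 0 := by decide
  rw [← map_ofNat e 2, h, map_zero]

theorem index_omega [Finite K] (e : ZMod 2 ≃+* K) :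
    (Omega K (quadFormMinus 2 K (1 : K) 1)).index = 2 :=
  CfsgLib.Classical.Orth.index_omega_even (isNondeg e) (two_zero e) (by simp) (fun h => by simp at h)

theorem transv_not_mem_omega [Finite K] {a : ℕ} (ha : a ∈ [7, 11, 19, 32, 35])
    (r : isometryGroup K (quadFormMinus 2 K (1 : K) 1))
    (hr : ((r : GL I6 K) : Matrix I6 I6 K) = e.toRingHom.mapMatrix (transv a)) :
    r ∉ Omega K (quadFormMinus 2 K (1 : K) 1) := by
  haveI : CharP K 2 := RingHom.charP e.symm.toRingHom e.symm.injective 2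
  rw [CfsgLib.OrthGeo.involution_mem_omega_iff (isNondeg e) (fun h => by simp at h) r]
  suffices h : (((r : GL I6 K) : Matrix I6 I6 K) - 1).rank = 1 by rw [h]; simp
  have he : ((r : GL I6 K) : Matrix I6 I6 K) - 1 = vecMulVec (e ∘ vecOf a)
      (e ∘ fun k => qf (Pi.single k 1 + vecOf a) + qf (Pi.single k 1) + qf (vecOf a)) := by
    rw [hr, transv, map_add, map_one, add_sub_cancel_left]
    ext i j
    simp [vecMulVec_apply]
  have hne : ((r : GL I6 K) : Matrix I6 I6 K) - 1 ≠ 0 := by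
    intro h
    rw [sub_eq_zero, hr, ← map_one e.toRingHom.mapMatrix] at h
    exact (transv_spec a ha).2.1 (Matrix.map_injective e.injective h)
  refine le_antisymm (he ▸ Matrix.rank_vecMulVec_le _ _) ?_
  rw [Nat.one_le_iff_ne_zero]
  intro h
  apply hne
  have hz := LinearMap.range_eq_bot.1 (Submodule.finrank_eq_zero.1 h)
  exact Matrix.ext_of_mulVec_single fun j => by
    rw [zero_mulVec]; exact LinearMap.congr_fun hz (Pi.single j 1)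

theorem gen_parity [Finite K] (g : Fin 4) :
    (Equiv.Perm.sign (toPerm e ⟨_, el_mem e (genIdx g)⟩) = 1) ↔
      toOrth e ⟨_, el_mem e (genIdx g)⟩ ∈ Omega K (quadFormMinus 2 K (1 : K) 1) := by
  have hs : ∀ g, Equiv.Perm.sign (perm (genIdx g)) = ![-1, -1, -1, 1] g := by decide +kernel
  have mk : ∀ a ∈ [7, 11, 19, 32, 35], ∃ r : isometryGroup K (quadFormMinus 2 K (1 : K) 1),
      ((r : GL I6 K) : Matrix I6 I6 K) = e.toRingHom.mapMatrix (transv a) ∧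
      r ∉ Omega K (quadFormMinus 2 K (1 : K) 1) := by
    intro a ha
    obtain ⟨h1, -, h3⟩ := transv_spec a ha
    let u : GL I6 K := Units.map e.toRingHom.mapMatrix.toMonoidHom ⟨transv a, transv a, h1, h1⟩
    refine ⟨⟨u, CfsgLib.OrthGeo.mem_isometryGroup.2 fun v => ?_⟩, rfl, ?_⟩
    · obtain ⟨v', rfl⟩ : ∃ v', e ∘ v' = v := ⟨e.symm ∘ v, by ext; simp⟩
      show quadFormMinus 2 K 1 1 (e.toRingHom.mapMatrix (transv a) *ᵥ (e ∘ v')) = _
      rw [show e.toRingHom.mapMatrix (transv a) *ᵥ (e ∘ v') = e ∘ (transv a *ᵥ v') from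
        funext fun i => (RingHom.map_mulVec e.toRingHom _ v' i).symm, qf_map, qf_map, h3]
    · exact transv_not_mem_omega e ha _ rfl
  obtain ⟨r7, h7, n7⟩ := mk 7 (by simp)
  obtain ⟨r11, h11, n11⟩ := mk 11 (by simp)
  obtain ⟨r19, h19, n19⟩ := mk 19 (by simp)
  obtain ⟨r32, h32, n32⟩ := mk 32 (by simp)
  obtain ⟨r35, h35, n35⟩ := mk 35 (by simp)
  have hidx := index_omega e
  obtain ⟨d0, d2, d3⟩ := gen_decomp
  have o0 : toOrth e ⟨_, el_mem e (genIdx 0)⟩ = r7 * r11 * r19 := Subtype.ext (Units.ext (by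
    show e.toRingHom.mapMatrix (mat (genIdx 0)) = _
    rw [d0, map_mul, map_mul, ← h7, ← h11, ← h19]; rfl))
  have o2 : toOrth e ⟨_, el_mem e (genIdx 2)⟩ = r19 := Subtype.ext (Units.ext (by
    show e.toRingHom.mapMatrix (mat (genIdx 2)) = _
    rw [d2, h19]))
  have o3 : toOrth e ⟨_, el_mem e (genIdx 3)⟩ = r32 * r35 := Subtype.ext (Units.ext (by
    show e.toRingHom.mapMatrix (mat (genIdx 3)) = _
    rw [d3, map_mul, ← h32, ← h35]; rfl))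
  have o1 : toOrth e ⟨_, el_mem e (genIdx 1)⟩ = (toOrth e ⟨_, el_mem e (genIdx 0)⟩)⁻¹ := by
    rw [← map_inv]
    congr 1
  show Equiv.Perm.sign (perm (genIdx g)) = 1 ↔ _
  rw [hs]
  fin_cases g
  · rw [show (⟨0, by omega⟩ : Fin 4) = 0 from rfl, o0]
    simp [Subgroup.mul_mem_iff_of_index_two hidx, n7, n11, n19]
  · rw [show (⟨1, by omega⟩ : Fin 4) = 1 from rfl, o1, inv_mem_iff, o0]
    simp [Subgroup.mul_mem_iff_of_index_two hidx, n7, n11, n19]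
  · rw [show (⟨2, by omega⟩ : Fin 4) = 2 from rfl, o2]
    simp [n19]
  · rw [show (⟨3, by omega⟩ : Fin 4) = 3 from rfl, o3]
    simp [Subgroup.mul_mem_iff_of_index_two hidx, n32, n35]

theorem parity [Finite K] (x : common e) :
    Equiv.Perm.sign (toPerm e x) = 1 ↔ toOrth e x ∈ Omega K (quadFormMinus 2 K (1 : K) 1) := by
  have hidx := index_omega e
  have hu : ∀ u w : ℤˣ, u * w = 1 ↔ (u = 1 ↔ w = 1) := by decide
  obtain ⟨x, hx⟩ := x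
  induction hx using Subgroup.closure_induction with
  | mem y hy =>
    obtain ⟨g, rfl⟩ := hy
    exact gen_parity e g
  | one =>
    rw [show (⟨1, _⟩ : common e) = 1 from rfl, map_one, map_one, map_one]
    simp [one_mem]
  | mul y z hy hz ihy ihz =>
    rw [show (⟨y * z, _⟩ : common e) = ⟨y, hy⟩ * ⟨z, hz⟩ from rfl, map_mul, map_mul, map_mul,
      Subgroup.mul_mem_iff_of_index_two hidx, hu]
    exact iff_congr ihy ihz
  | inv y hy ih =>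
    rw [show (⟨y⁻¹, _⟩ : common e) = (⟨y, hy⟩ : common e)⁻¹ from rfl, map_inv, map_inv, map_inv, inv_eq_one,
      inv_mem_iff]
    exact ih

end

end CfsgLib.SylowEightSix
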